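import Cfsg.Agent.H254.FxEvenTI
import Cfsg.Agent.H242.StrP.Uni
import Cfsg.Agent.H818.StrP.Own
import Cfsg.Agent.UGT.U2.FOne.PSUPlane
import Cfsg.Agent.H783.RowSpU

/-!
# `NoEv` for `PSU_n(q)`, `n ≥ 5` odd, `q ≡ 1 (mod 4)` (task 2045, S3002)
-/

set_option autoImplicit false
set_option linter.unusedSectionVars false

namespace Cfsg.Agent.H783.EvPSU

open Cfsg Cfsg.Agent.LieClassical.HermBasic Cfsg.Agent.LieClassical.HermSiegel
  Cfsg.Agent.LieClassical.HermGen Cfsg.Agent.LieClassical.SUBasic Matrix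
  Cfsg.Agent.ClassicalGeometry.PSUAutBasic Cfsg.Agent.ClassicalGeometry.HermOrtho Module
open Cfsg.Agent.UGT.U2.FOne.PSU Cfsg.Agent.H254.Ev
open Cfsg.Agent.Cit.LongInst (KK card_KK)

variable {F : Type*} [Field F] [Fintype F] {q n : ℕ}

/-- elements of `fixG W` preserve `W` -/
theorem act_mem (hF : Fintype.card F = q ^ 2) {W : Submodule F (Fin n → F)}
    (hW : ∀ u ∈ W, (∀ v ∈ W, hermForm n F q u v = 0) → u = 0) {x : SU n F q} (hx : x ∈ fixG q W) {w : Fin n → F}
    (hw : w ∈ W) : act x w ∈ W := by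
  obtain ⟨w1, hw1, u1, hu1, e⟩ := exists_add_perp hF W hW (act x w)
  have h0 : u1 = 0 := by
    refine hermPerp_nondeg hF W hW u1 hu1 fun v hv => ?_
    have h1 : hermForm n F q (act x w) v = 0 := by
      have h2 : act x v = v := mem_fixG.1 hx v hv
      rw [← h2, herm_act, herm_swap hF, hv w hw, zero_pow_q hF]
    rw [e, herm_add_left] at h1
    have h3 : hermForm n F q w1 v = 0 := by
      rw [herm_swap hF, hv w1 hw1, zero_pow_q hF]
    rw [h3, zero_add] at h1
    exact h1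
  rw [e, h0, add_zero]
  exact hw1

/-- an element which is scalar on `W` commutes with `fixG W` -/
theorem comm_of_scalar (hF : Fintype.card F = q ^ 2) {W : Submodule F (Fin n → F)}
    (hW : ∀ u ∈ W, (∀ v ∈ W, hermForm n F q u v = 0) → u = 0) {g x : SU n F q} (hx : x ∈ fixG q W) {c : F}
    (hc : ∀ w ∈ W, act g w = c • w) : x * g = g * x := by
  apply ext_act
  intro v
  obtain ⟨w, hw, u, hu, rfl⟩ := exists_add_perp hF W hW v
  rw [act_mul, act_mul]
  simp only [act_add]
  have h1 : act x u = u := mem_fixG.1 hx u hu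
  have h2 : act x (act g u) = act g u := by
    refine mem_fixG.1 hx _ fun w' hw' => ?_
    by_cases hc0 : c = 0
    · have h3 := hc w' hw'
      rw [hc0, zero_smul] at h3
      rw [(act_eq_zero g).1 h3, herm_zero_right hF]
    · have h3 : w' = act g (c⁻¹ • w') := by
        rw [act_smul, hc w' hw', smul_smul, inv_mul_cancel₀ hc0, one_smul]
      rw [h3, herm_act, herm_smul_right, hu w' hw', mul_zero]
  rw [h1, h2, hc w hw, hc _ (act_mem hF hW hx hw), act_smul]

/-- **Every involution of `PSU_n(q)`, `n ≥ 5` odd, commutes with the `SL₂(q)` of a nondegenerate plane.** -/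
theorem exists_plane (hF : Fintype.card F = q ^ 2) (h2 : (2 : F) ≠ 0) (hn : 5 ≤ n) (hno : Odd n) {s : PSU n F q}
    (hs : s * s = 1) : ∃ W : Submodule F (Fin n → F), (∀ u ∈ W, (∀ v ∈ W, hermForm n F q u v = 0) → u = 0) ∧
      finrank F W = 2 ∧ ∀ y ∈ JJ q W, y * s = s * y := by
  obtain ⟨g, rfl⟩ := pr_surjective s
  have hg : g * g ∈ Subgroup.center (SU n F q) := by
    rw [← map_mul] at hs
    exact (QuotientGroup.eq_one_iff _).1 hs
  obtain ⟨c, hcn, hcq, hgc⟩ := (mem_center_SU_iff hF (by omega) _).1 hg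
  have hgg : ∀ v, act g (act g v) = c • v := by
    intro v
    rw [← act_mul, hgc]
    show (suScalar q c hcn hcq).1.1 *ᵥ v = c • v
    have : (suScalar q c hcn hcq).1.1 = diagonal fun _ => c := rfl
    rw [this]
    funext i
    rw [mulVec_diagonal, Pi.smul_apply, smul_eq_mul]
  -- the square root of the scalar
  obtain ⟨k, hk⟩ := hno
  obtain ⟨μ, hμ⟩ : ∃ μ : F, μ = c ^ (k + 1) := ⟨_, rfl⟩
  have hc0 : c ≠ 0 := by
    rintro rfl
    rw [zero_pow (by omega)] at hcn
    exact zero_ne_one hcn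
  have hμc : μ * μ = c := by
    rw [hμ, ← pow_add]
    have : k + 1 + (k + 1) = n + 1 := by omega
    rw [this, pow_succ, hcn, one_mul]
  have hμ0 : μ ≠ 0 := by
    rintro rfl
    rw [mul_zero] at hμc
    exact hc0 hμc.symm
  have hμq : μ * μ ^ q = 1 := by
    rw [hμ, ← pow_succ', ← pow_mul, mul_comm, pow_mul, hcq, one_pow]
  -- eigenspaces
  let E : F → Submodule F (Fin n → F) := fun l =>
    { carrier := {v | act g v = l • v}
      add_mem' := fun {a b} ha hb => by
        show act g (a + b) = l • (a + b)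
        rw [act_add, smul_add]
        exact congrArg₂ _ ha hb
      zero_mem' := by
        show act g 0 = l • 0
        rw [act_zero, smul_zero]
      smul_mem' := fun a v hv => by
        show act g (a • v) = l • (a • v)
        rw [act_smul, smul_comm]
        exact congrArg _ hv }
  have hE : ∀ l v, v ∈ E l ↔ act g v = l • v := fun l v => Iff.rfl
  have hsum : E μ ⊔ E (-μ) = ⊤ := by
    rw [eq_top_iff]
    intro v _
    have e : v = (2 : F)⁻¹ • (v + μ⁻¹ • act g v) + (2 : F)⁻¹ • (v - μ⁻¹ • act g v) := by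
      rw [← smul_add, add_add_sub_cancel, ← two_smul F v, smul_smul, inv_mul_cancel₀ h2, one_smul]
    rw [e]
    refine Submodule.add_mem_sup (Submodule.smul_mem _ _ ?_) (Submodule.smul_mem _ _ ?_)
    · rw [hE, act_add, act_smul, hgg, smul_smul, smul_add, smul_smul, mul_inv_cancel₀ hμ0, one_smul, ← hμc,
        inv_mul_cancel_left₀ hμ0, add_comm]
    · rw [hE, act_sub, act_smul, hgg, smul_smul, smul_sub, smul_smul, ← hμc, inv_mul_cancel_left₀ hμ0, neg_mul,
        mul_inv_cancel₀ hμ0, neg_smul, neg_smul, one_smul]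
      abel
  have horth : ∀ u ∈ E μ, ∀ v ∈ E (-μ), hermForm n F q u v = 0 := by
    intro u hu v hv
    rw [hE] at hu hv
    have h1 := herm_act g u v
    rw [hu, hv, herm_smul_left, herm_smul_right, neg_pow_q hF] at h1
    have h3 : (2 : F) * hermForm n F q u v = 0 := by
      linear_combination -h1 - hermForm n F q u v * hμq
    exact (mul_eq_zero.1 h3).resolve_left h2
  have hnd1 : ∀ u ∈ E μ, (∀ v ∈ E μ, hermForm n F q u v = 0) → u = 0 := by
    intro u hu h
    refine herm_nondeg hF fun x => ?_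
    have hx : x ∈ E μ ⊔ E (-μ) := by rw [hsum]; trivial
    obtain ⟨a, ha, b, hb, rfl⟩ := Submodule.mem_sup.1 hx
    rw [herm_add_right hF, h a ha, horth u hu b hb, add_zero]
  have hnd2 : ∀ u ∈ E (-μ), (∀ v ∈ E (-μ), hermForm n F q u v = 0) → u = 0 := by
    intro u hu h
    refine herm_nondeg hF fun x => ?_
    have hx : x ∈ E μ ⊔ E (-μ) := by rw [hsum]; trivial
    obtain ⟨a, ha, b, hb, rfl⟩ := Submodule.mem_sup.1 hx
    rw [herm_add_right hF, h b hb, herm_swap hF, horth a ha u hu, zero_pow_q hF, zero_add]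
  have hdim : n ≤ finrank F (E μ) + finrank F (E (-μ)) := by
    have h1 := Submodule.finrank_add_le_finrank_add_finrank (E μ) (E (-μ))
    rw [hsum, finrank_top, finrank_fin_fun] at h1
    exact h1
  obtain ⟨l, hl, hnd⟩ : ∃ l : F, 2 ≤ finrank F (E l) ∧ ∀ u ∈ E l, (∀ v ∈ E l, hermForm n F q u v = 0) → u = 0 := by
    rcases (by omega : 2 ≤ finrank F (E μ) ∨ 2 ≤ finrank F (E (-μ))) with h | h
    · exact ⟨_, h, hnd1⟩
    · exact ⟨_, h, hnd2⟩
  obtain ⟨b, hbE, hb⟩ := exists_orthonormal hF (E l) hnd rfl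
  let b' : Fin 2 → (Fin n → F) := fun i => b (Fin.castLE hl i)
  have hb' : ∀ i j, hermForm n F q (b' i) (b' j) = if i = j then 1 else 0 := by
    intro i j
    rw [hb]
    simp only [Fin.castLE_inj]
  have hli := linearIndependent_of_orthonormal hb'
  have hsp : ∀ w ∈ Submodule.span F (Set.range b'), ∃ a : Fin 2 → F, w = ∑ i, a i • b' i := by
    intro w hw
    obtain ⟨a, rfl⟩ := (Submodule.mem_span_range_iff_exists_fun F).1 hw
    exact ⟨a, rfl⟩
  refine ⟨Submodule.span F (Set.range b'), ?_, ?_, ?_⟩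
  · intro u hu h
    obtain ⟨a, rfl⟩ := hsp u hu
    have h1 : ∀ j, a j = 0 := fun j => by
      rw [← herm_sum_smul_left hb' a j]
      exact h _ (Submodule.subset_span ⟨j, rfl⟩)
    exact Finset.sum_eq_zero fun i _ => by rw [h1 i, zero_smul]
  · rw [finrank_span_eq_card hli, Fintype.card_fin]
  · rintro _ ⟨x, hx, rfl⟩
    rw [← map_mul, ← map_mul]
    congr 1
    refine comm_of_scalar hF ?_ hx (c := l) ?_
    · intro u hu h
      obtain ⟨a, rfl⟩ := hsp u hu
      have h1 : ∀ j, a j = 0 := fun j => by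
        rw [← herm_sum_smul_left hb' a j]
        exact h _ (Submodule.subset_span ⟨j, rfl⟩)
      exact Finset.sum_eq_zero fun i _ => by rw [h1 i, zero_smul]
    · intro w hw
      have h1 : Submodule.span F (Set.range b') ≤ E l := by
        rw [Submodule.span_le]
        rintro _ ⟨i, rfl⟩
        exact hbE _
      exact h1 hw

/-- the order of `SL₂(K)` -/
theorem card_SL2 (K : Type*) [Field K] [Fintype K] :
    Nat.card (SpecialLinearGroup (Fin 2) K) = Fintype.card K * ((Fintype.card K - 1) * (Fintype.card K + 1)) := by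
  have h := Cfsg.Agent.S0242.result (F := K) rfl 2 (by norm_num)
  have hq : 2 ≤ Fintype.card K := Fintype.one_lt_card
  rw [Fin.prod_univ_two] at h
  obtain ⟨k, hk⟩ : ∃ k, Fintype.card K = k + 2 := ⟨Fintype.card K - 2, by omega⟩
  rw [hk] at h ⊢
  have e1 : (k + 2) ^ 2 - (k + 2) ^ ((0 : Fin 2) : ℕ) = (k + 1) * (k + 3) := by
    rw [Fin.val_zero, pow_zero]
    apply Nat.sub_eq_of_eq_add
    ring
  have e2 : (k + 2) ^ 2 - (k + 2) ^ ((1 : Fin 2) : ℕ) = (k + 2) * (k + 1) := by
    rw [Fin.val_one, pow_one]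
    apply Nat.sub_eq_of_eq_add
    ring
  rw [e1, e2] at h
  have h3 : k + 2 - 1 = k + 1 := by omega
  rw [h3] at h ⊢
  apply Nat.eq_of_mul_eq_mul_right (show 0 < k + 1 by omega)
  linarith

/-- an element of order `r` commuting with an involution -/
theorem exists_elt {F : Type} [Field F] [Fintype F] (hF : Fintype.card F = q ^ 2) (ho : Odd q) (hn : 5 ≤ n) (hno : Odd n)
    {s : PSU n F q} (hs : s * s = 1) {r : ℕ} (hr : r.Prime) (hd : r ∣ q * ((q - 1) * (q + 1))) :
    ∃ y : PSU n F q, orderOf y = r ∧ y * s = s * y := by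
  have hfin : Finite (PSU n F q) := Quotient.finite _
  have : Fact r.Prime := ⟨hr⟩
  have h2 : (2 : F) ≠ 0 := SignalizersComponents.SLQuasisimple.two_ne_zero_of_odd (by rw [hF]; exact ho.pow)
  obtain ⟨W, hW, hk, hc⟩ := exists_plane hF h2 hn hno hs
  obtain ⟨-, -, ⟨e⟩⟩ := exists_good5 hF ho (show 3 ≤ n by omega) W hW hk
  have hcard : r ∣ Nat.card (JJ q W) := by
    rw [Nat.card_congr e.toEquiv, card_SL2, card_KK]
    exact hd
  obtain ⟨⟨y, hy⟩, hyr⟩ := exists_prime_orderOf_dvd_card' r hcard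
  rw [Subgroup.orderOf_mk] at hyr
  exact ⟨y, hyr, hc y hy⟩

theorem not_comm {F : Type} [Field F] [Fintype F] (hF : Fintype.card F = q ^ 2) (ho : Odd q) (hn : 5 ≤ n) (hno : Odd n) :
    ¬ IsMulCommutative (PSU n F q) := by
  intro hc
  have h1 : ∀ a b : PSU n F q, a * b = b * a := fun a b => mul_comm' a b
  have h2 : (2 : F) ≠ 0 := SignalizersComponents.SLQuasisimple.two_ne_zero_of_odd (by rw [hF]; exact ho.pow)
  obtain ⟨W, hW, hk, -⟩ := exists_plane (n := n) hF h2 hn hno (s := 1) (mul_one 1)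
  obtain ⟨-, -, ⟨e⟩⟩ := exists_good5 hF ho (show 3 ≤ n by omega) W hW hk
  have h3 : ∀ a b : SpecialLinearGroup (Fin 2) (KK hF), a * b = b * a := by
    intro a b
    obtain ⟨a, rfl⟩ := e.surjective a
    obtain ⟨b, rfl⟩ := e.surjective b
    rw [← map_mul, ← map_mul]
    congr 1
    exact Subtype.ext (h1 a b)
  have h4 : (!![1, 1; 0, 1] * !![1, 0; 1, 1] : Matrix (Fin 2) (Fin 2) (KK hF)) = !![1, 0; 1, 1] * !![1, 1; 0, 1] :=
    congrArg Subtype.val
      (h3 ⟨!![1, 1; 0, 1], by simp [det_fin_two]⟩ ⟨!![1, 0; 1, 1], by simp [det_fin_two]⟩)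
  have h5 := congrFun (congrFun h4 0) 0
  simp [Matrix.mul_apply, Fin.sum_univ_two] at h5

/-- **`NoEv (PSU_n(q))`**, `n ≥ 5` odd, `q ≡ 1 (mod 4)`. -/
theorem noEv {F : Type} [Field F] [Fintype F] (hF : Fintype.card F = q ^ 2) (hq : q % 4 = 1) (hn : 5 ≤ n) (hno : Odd n) :
    NoEv (PSU n F q) := by
  have ho : Odd q := Nat.odd_iff.2 (by omega)
  have hs : IsSimpleGroup (PSU n F q) := RowSpU.simple_U hF (by omega) ho
  have hfin : Finite (PSU n F q) := Quotient.finite _
  have hna := not_comm (n := n) hF ho hn hno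
  rintro H hH ⟨t, ht2, ht4⟩
  have hH1 : H ≠ ⊤ := ne_top_of_exact (by norm_num) ht4
  obtain ⟨a, ha, -⟩ := exists_conj_exact (by norm_num) ht4
  obtain ⟨s, hs'⟩ : ∃ s, s = a⁻¹ * t * a := ⟨_, rfl⟩
  rw [← hs'] at ha
  have hss : s * s = 1 := by
    have h1 : t * t = 1 := by rw [← pow_two, ← ht2, pow_orderOf_eq_one]
    rw [hs']
    calc a⁻¹ * t * a * (a⁻¹ * t * a) = a⁻¹ * (t * t) * a := by group
      _ = 1 := by rw [h1]; group
  have hs1 : s ≠ 1 := by
    intro h1
    rw [hs'] at h1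
    have h3 : t = 1 := by
      calc t = a * (a⁻¹ * t * a) * a⁻¹ := by group
        _ = 1 := by rw [h1]; group
    rw [h3, orderOf_one] at ht2
    exact absurd ht2 (by norm_num)
  -- the criterion
  have key : ∀ r : ℕ, r.Prime → 5 ≤ r → r ∣ q * ((q - 1) * (q + 1)) → H998.StrP.NoSP r (PSU n F q) → False := by
    intro r hr h5 hd hno'
    obtain ⟨y, hyr, hys⟩ := exists_elt hF ho hn hno hss hr hd
    have hyH : y ∈ H := hH.mem_of_comm le_rfl ha hs1 hys (by rw [hyr]; exact H254.Fx.coprime_six_of_prime hr h5)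
    refine hH.false_of_noSP le_rfl hH1 hr h5 ?_ hno'
    have h1 : orderOf (⟨y, hyH⟩ : H) ∣ Nat.card H := orderOf_dvd_natCard _
    rwa [Subgroup.orderOf_mk, hyr] at h1
  obtain ⟨p, hchar⟩ := CharP.exists F
  have hp : p.Prime := CharP.char_is_prime F p
  have : Fact p.Prime := ⟨hp⟩
  have hp2 : p ≠ 2 := RowSpU.ne_two (RowSpU.odd_card hF ho)
  have hpq : p ∣ q := by
    obtain ⟨k, -, hk⟩ := FiniteField.card F p
    rw [hF] at hk
    exact hp.dvd_of_dvd_pow (m := q) (n := 2) (by rw [hk]; exact dvd_pow_self p k.ne_zero)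
  rcases Nat.lt_or_ge p 5 with h5 | h5
  · -- `p = 3`
    have hp3 : p = 3 := by
      have := hp.two_le
      interval_cases p
      · exact absurd rfl hp2
      · rfl
      · exact absurd hp (by norm_num)
    subst hp3
    -- an odd prime divisor of `q + 1`
    obtain ⟨m, hm⟩ : ∃ m, q + 1 = 2 * (2 * m + 1) := ⟨q / 4, by omega⟩
    have hq9 : 5 ≤ q := by
      obtain ⟨k, hk⟩ := hpq
      omega
    have hm1 : 2 * m + 1 ≠ 1 := by omega
    obtain ⟨r, hr, hrd⟩ := Nat.exists_prime_and_dvd hm1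
    have hr1 : r ∣ q + 1 := by rw [hm]; exact Dvd.dvd.mul_left hrd 2
    have hr2 : r ≠ 2 := by
      rintro rfl
      omega
    have hr3 : r ≠ 3 := by
      rintro rfl
      have h1 : 3 ∣ (q + 1) - q := Nat.dvd_sub hr1 hpq
      rw [Nat.add_sub_cancel_left] at h1
      exact absurd h1 (by norm_num)
    have hr5 : 5 ≤ r := by
      by_contra hcon
      have := hr.two_le
      interval_cases r
      · exact hr2 rfl
      · exact hr3 rfl
      · exact absurd hr (by norm_num)
    have : Fact r.Prime := ⟨hr⟩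
    obtain ⟨w, hwo⟩ : ∃ w : Fˣ, orderOf w = r := by
      classical
      refine exists_prime_orderOf_dvd_card r ?_
      rw [Fintype.card_units, hF]
      have e : q ^ 2 - 1 = (q + 1) * (q - 1) := by
        obtain ⟨k, hk⟩ : ∃ k, q = k + 1 := ⟨q - 1, by omega⟩
        rw [hk]
        apply Nat.sub_eq_of_eq_add
        rw [Nat.add_sub_cancel]
        ring
      rw [e]
      exact Dvd.dvd.mul_right hr1 _
    have hwq : w ^ (q + 1) = 1 := orderOf_dvd_iff_pow_eq_one.1 (by rw [hwo]; exact hr1)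
    refine key r hr hr5 (Dvd.dvd.mul_left (Dvd.dvd.mul_left hr1 _) _) ?_
    refine H242.StrP.Uni.noSP_of_root (r := 3) hF (by omega) hna hr3 hr2 (MulEquiv.refl _) (w := w) ?_ ?_ hwq
    · rw [← hwo]; exact pow_orderOf_eq_one w
    · intro h
      rw [h, orderOf_one] at hwo
      exact hr.one_lt.ne hwo
  · exact key p hp h5 (Dvd.dvd.mul_right hpq _) (H818.StrP.Own.hasRGD2_PSU hF (by omega)).noSP

/-- **`NoEv (PSU_5(q))`**, `q ≡ 1 (mod 4)`. -/
theorem noEv_psu5 {q : ℕ} (K : Type) [Field K] [Fintype K] (hK : Fintype.card K = q ^ 2) (h : q % 4 = 1) :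
    NoEv (Cfsg.PSU 5 K q) := noEv hK h le_rfl (by decide)

end Cfsg.Agent.H783.EvPSU
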