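import Cfsg.Agent.H997.PF.Rows
import Cfsg.Agent.H548.DerAlt
import Cfsg.Agent.H171.AltGoal
import Cfsg.Agent.H394.SqAlt
import Cfsg.Agent.Classification.SmallOrders.PrimeDegree

/-!
# Full subgroups of the alternating groups; primitive factorizations (task 2999, for S3522)

* `intrans_of_full` : a proper subgroup of `Alt n` (`n ≥ 5`, `n ≠ 6`) of order divisible by all primes dividing `|Alt n|`
  is intransitive, and `n ≥ 8`;
* `pgap_five`, `pgap_seven` : `n = 5, 7`: every proper subgroup misses a prime;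
* `fac_alt` : `Alt n` is not the socle of a primitive factorization.
-/

set_option autoImplicit false
set_option linter.unusedSectionVars false

namespace Cfsg.Agent.H783.FacAlt

open Equiv Equiv.Perm MulAction Cfsg.Agent.H394 Cfsg.Agent.H394.SqBasic Cfsg.Agent.H938.Sax Cfsg.Agent.H997.PF
  Cfsg.Agent.H548.DerAlt
open scoped Pointwise

universe u

theorem simple_alt (n : ℕ) (hn : 5 ≤ n) : IsSimpleGroup (alternatingGroup (Fin n)) :=
  alternatingGroup.isSimpleGroup (by simpa using hn)

theorem pgap_five (M : Subgroup (alternatingGroup (Fin 5))) (hM : M ≠ ⊤) : PGap _ M := by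
  by_contra hall
  have hcard : Nat.card (alternatingGroup (Fin 5)) = 60 := SqAlt.card_alt 5 (by norm_num)
  have hp : ∀ p : ℕ, p.Prime → p ∣ 60 → p ∣ Nat.card M := fun p hp hd => by
    by_contra h
    exact hall ⟨p, hp, by rw [hcard]; exact hd, h⟩
  have h2 := hp 2 (by norm_num) (by norm_num)
  have h3 := hp 3 (by norm_num) (by norm_num)
  have h5 := hp 5 (by norm_num) (by norm_num)
  have h30 : 30 ∣ Nat.card M := by omega
  have hi := M.card_mul_index
  rw [hcard] at hi
  have := simple_alt 5 (by norm_num)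
  have h7 := le_index_of_prime_dvd hM (p := 5) (by norm_num) (by rw [hcard]; norm_num)
  obtain ⟨c, hc⟩ := h30
  rw [hc] at hi
  have : 0 < c := by
    rcases Nat.eq_zero_or_pos c with rfl | h
    · omega
    · exact h
  nlinarith

/-- no subgroup of order `210` -/
theorem no_210 {G : Type*} [Group G] [Finite G] [IsSimpleGroup G] (hG : Nat.card G = 2520)
    (H : Subgroup G) (hH : H.index = 7) (M : Subgroup G) : Nat.card M ≠ 210 := by
  intro hM210
  have hf : Fact (Nat.Prime 7) := ⟨by norm_num⟩
  have hna : ¬ IsMulCommutative G := by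
    apply Cfsg.Agent.SmallSimple.Embed.not_comm_of_card_not_prime
    rw [hG]
    norm_num
  obtain ⟨P⟩ : Nonempty (Sylow 7 M) := inferInstance
  have hP7 : Nat.card P = 7 := by
    rw [P.card_eq_multiplicity, hM210]
    have : (210 : ℕ).factorization 7 = 1 := by
      rw [show (210 : ℕ) = 7 * 30 by norm_num, Nat.factorization_mul (by norm_num) (by norm_num)]
      simp [(by norm_num : Nat.Prime 7).factorization, Nat.factorization_eq_zero_of_not_dvd (show ¬ 7 ∣ 30 by norm_num)]
    rw [this]
    norm_num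
  have hPG : Nat.card ((P : Subgroup M).map M.subtype) = 7 := by
    exact (Nat.card_congr ((P : Subgroup M).equivMapOfInjective M.subtype M.subtype_injective).toEquiv.symm).trans hP7
  obtain ⟨Q, hQ⟩ := (IsPGroup.of_card (n := 1) (by rw [hPG, pow_one]) : IsPGroup 7 ((P : Subgroup M).map M.subtype)).exists_le_sylow
  have hQ7 : Nat.card Q = 7 := by
    rw [Q.card_eq_multiplicity, hG]
    have : (2520 : ℕ).factorization 7 = 1 := by
      rw [show (2520 : ℕ) = 7 * 360 by norm_num, Nat.factorization_mul (by norm_num) (by norm_num)]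
      simp [(by norm_num : Nat.Prime 7).factorization, Nat.factorization_eq_zero_of_not_dvd (show ¬ 7 ∣ 360 by norm_num)]
    rw [this]
    norm_num
  have hQP : (P : Subgroup M).map M.subtype = (Q : Subgroup G) :=
    Subgroup.eq_of_le_of_card_ge hQ (by rw [hPG]; exact hQ7.le)
  have hN := Cfsg.Agent.Classification.SmallOrders.PrimeDegree.two_mul_card_normalizer_dvd hna (by norm_num) Q hQ7
    H (fun h => by rw [h, Subgroup.index_top] at hH; omega) (Or.inl hH)
  have hN' : Nat.card (Subgroup.normalizer ((P : Subgroup M) : Set M)) ∣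
      Nat.card (Subgroup.normalizer ((Q : Subgroup G) : Set G)) := by
    have h1 := Subgroup.le_normalizer_map (H := (P : Subgroup M)) M.subtype
    rw [hQP] at h1
    refine dvd_trans (dvd_of_eq ?_) (Subgroup.card_dvd_of_le h1)
    exact Nat.card_congr ((Subgroup.normalizer ((P : Subgroup M) : Set M)).equivMapOfInjective M.subtype
      M.subtype_injective).toEquiv
  have h21 : Nat.card (Subgroup.normalizer ((P : Subgroup M) : Set M)) ∣ 21 := by
    refine hN'.trans (Nat.dvd_of_mul_dvd_mul_left (by norm_num : 0 < 2) ?_)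
    exact hN
  have h1 : Nat.card (Sylow 7 M) = (Subgroup.normalizer ((P : Subgroup M) : Set M)).index := P.card_eq_index_normalizer
  have h2 := (Subgroup.normalizer ((P : Subgroup M) : Set M)).card_mul_index
  rw [hM210, ← h1] at h2
  have h3 := card_sylow_modEq_one 7 M
  unfold Nat.ModEq at h3
  have h4 := Nat.le_of_dvd (by norm_num) h21
  generalize Nat.card (Subgroup.normalizer ((P : Subgroup M) : Set M)) = k at h21 h2 h4
  generalize Nat.card (Sylow 7 M) = m at h2 h3
  interval_cases k <;> omega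

theorem pgap_seven (M : Subgroup (alternatingGroup (Fin 7))) (hM : M ≠ ⊤) : PGap _ M := by
  by_contra hall
  have hcard : Nat.card (alternatingGroup (Fin 7)) = 2520 := SqAlt.card_alt 7 (by norm_num)
  have hp : ∀ p : ℕ, p.Prime → p ∣ 2520 → p ∣ Nat.card M := fun p hp hd => by
    by_contra h
    exact hall ⟨p, hp, by rw [hcard]; exact hd, h⟩
  have h2 := hp 2 (by norm_num) (by norm_num)
  have h3 := hp 3 (by norm_num) (by norm_num)
  have h5 := hp 5 (by norm_num) (by norm_num)
  have h7' := hp 7 (by norm_num) (by norm_num)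
  have h210 : 210 ∣ Nat.card M := by omega
  have hi := M.card_mul_index
  rw [hcard] at hi
  have hsim := simple_alt 7 (by norm_num)
  have h7 := le_index_of_prime_dvd hM (p := 7) (by norm_num) (by rw [hcard]; norm_num)
  have hst : (stabilizer (alternatingGroup (Fin 7)) (0 : Fin 7)).index = 7 := by
    have : IsPretransitive (alternatingGroup (Fin 7)) (Fin 7) :=
      alternatingGroup.isPretransitive_of_three_le_card _ (by simp)
    rw [index_stabilizer_of_transitive, Nat.card_fin]
  refine no_210 hcard _ hst M ?_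
  obtain ⟨c, hc⟩ := h210
  rw [hc] at hi ⊢
  have h8 : c * M.index = 12 := by
    have : 210 * (c * M.index) = 210 * 12 := by rw [← mul_assoc, hi]
    omega
  have h9 : c ≤ 1 := by
    by_contra hcon
    have : 2 * 7 ≤ c * M.index := Nat.mul_le_mul (by omega) h7
    omega
  interval_cases c
  · omega
  · rfl

variable {n : ℕ}

/-- **Full proper subgroups of `Alt n` are intransitive.** -/
theorem intrans_of_full (hn : 5 ≤ n) (h6 : n ≠ 6) (M : Subgroup (alternatingGroup (Fin n))) (hM : M ≠ ⊤)
    (hf : ¬ PGap _ M) : 8 ≤ n ∧ ∃ Δ : Finset (Fin n), Δ.Nonempty ∧ Δᶜ.Nonempty ∧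
      ∀ g ∈ M, ∀ x ∈ Δ, (g : Perm (Fin n)) x ∈ Δ := by
  classical
  have h8 : 8 ≤ n := by
    by_contra hlt
    rcases (by omega : n = 5 ∨ n = 7) with rfl | rfl
    · exact hf (pgap_five M hM)
    · exact hf (pgap_seven M hM)
  refine ⟨h8, ?_⟩
  by_cases htr : IsPretransitive (M.map (alternatingGroup (Fin n)).subtype) (Fin n)
  · exfalso
    obtain ⟨p, hp, hp1, hp2⟩ := exists_prime_three h8
    obtain ⟨g, hg, ho⟩ := SqAlt.exists_full n p hp (by omega) (by omega)
    have hpc : p ∣ Nat.card (alternatingGroup (Fin n)) := by rw [← ho]; exact orderOf_dvd_natCard g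
    have hpM : p ∣ Nat.card M := by
      by_contra h
      exact hf ⟨p, hp, hpc, h⟩
    have hfp : Fact p.Prime := ⟨hp⟩
    obtain ⟨h, hh⟩ := exists_prime_orderOf_dvd_card' p hpM
    have ho2 : orderOf ((h : alternatingGroup (Fin n)) : Perm (Fin n)) = p := by
      rw [Subgroup.orderOf_coe, Subgroup.orderOf_coe, hh]
    have hcyc : ((h : alternatingGroup (Fin n)) : Perm (Fin n)).cycleType = {p} := by
      obtain ⟨k, hk⟩ := cycleType_prime_order (σ := ((h : alternatingGroup (Fin n)) : Perm (Fin n))) (by rw [ho2]; exact hp)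
      rw [ho2] at hk
      have h1 := sum_cycleType ((h : alternatingGroup (Fin n)) : Perm (Fin n))
      rw [hk, Multiset.sum_replicate, smul_eq_mul] at h1
      have h0 : ((h : alternatingGroup (Fin n)) : Perm (Fin n)).support.card ≤ n := by
        simpa using ((h : alternatingGroup (Fin n)) : Perm (Fin n)).support.card_le_univ
      have h2 : k = 0 := by
        by_contra hne
        have h3 : 2 ≤ k + 1 := by omega
        have h4 : 2 * p ≤ (k + 1) * p := Nat.mul_le_mul_right _ h3
        omega
      rw [hk, h2]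
      rfl
    refine miss_of_jordan (s := 0) (k := 1) hn hM hp hp2 (by norm_num) hp.one_lt (by simp)
      (fun x hx h1 h2 => prim_of_mem htr (by omega) hp hp1 hx h1 h2) _ h.2 ?_
    rw [hcyc]
    rfl
  · set M' := M.map (alternatingGroup (Fin n)).subtype with hM'
    have hex : ∃ x y : Fin n, y ∉ orbit M' x := by
      by_contra h
      push Not at h
      apply htr
      exact ⟨fun x y => h x y⟩
    obtain ⟨x, y, hy⟩ := hex
    refine ⟨(orbit M' x).toFinset, ⟨x, ?_⟩, ⟨y, ?_⟩, ?_⟩
    · rw [Set.mem_toFinset]; exact mem_orbit_self x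
    · rw [Finset.mem_compl, Set.mem_toFinset]; exact hy
    · intro g hg z hz
      rw [Set.mem_toFinset] at hz ⊢
      obtain ⟨m, rfl⟩ := hz
      have hgM : (g : Perm (Fin n)) ∈ M' := ⟨g, hg, rfl⟩
      refine ⟨⟨(g : Perm (Fin n)), hgM⟩ * m, ?_⟩
      change ((⟨(g : Perm (Fin n)), hgM⟩ * m : M') • x : Fin n) = _
      rw [mul_smul]
      rfl

/-- **A full maximal subgroup of `Alt n` is mapped by all automorphisms to a conjugate.** -/
theorem conj_of_full (hn : 5 ≤ n) (h6 : n ≠ 6) (M : Subgroup (alternatingGroup (Fin n))) (hM : IsCoatom M)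
    (hf : ¬ PGap _ M) (φ : MulAut (alternatingGroup (Fin n))) :
    ∃ x : alternatingGroup (Fin n), M.map φ.toMonoidHom = M.map (MulAut.conj x).toMonoidHom := by
  classical
  obtain ⟨h8, Δ, ⟨a, ha⟩, ⟨b, hb⟩, hΔ⟩ := intrans_of_full hn h6 M hM.1 hf
  rw [Finset.mem_compl] at hb
  -- the transposition
  obtain ⟨u, v, huv, hin⟩ : ∃ u v : Fin n, u ≠ v ∧ (u ∈ Δ ↔ v ∈ Δ) := by
    by_contra hcon
    push Not at hcon
    have h1 : Δ.card ≤ 1 := Finset.card_le_one.2 fun x hx y hy => by
      by_contra hxy
      rcases hcon x y hxy with h | h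
      · exact h.2 hy
      · exact h.1 hx
    have h2 : Δᶜ.card ≤ 1 := Finset.card_le_one.2 fun x hx y hy => by
      rw [Finset.mem_compl] at hx hy
      by_contra hxy
      rcases hcon x y hxy with h | h
      · exact hx h.1
      · exact hy h.2
    have h3 := Finset.card_add_card_compl Δ
    rw [Fintype.card_fin] at h3
    omega
  set τ : Perm (Fin n) := swap u v with hτ
  have hτΔ : ∀ x, τ x ∈ Δ ↔ x ∈ Δ := by
    intro x
    rw [hτ, swap_apply_def]
    split_ifs with h h
    · rw [h]; exact hin.symm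
    · rw [h]; exact hin
    · rfl
  -- the stabiliser
  let St : Subgroup (alternatingGroup (Fin n)) :=
    { carrier := {g | ∀ x, (g : Perm (Fin n)) x ∈ Δ ↔ x ∈ Δ}
      mul_mem' := fun {g k} hg hk x => (hg _).trans (hk x)
      one_mem' := fun x => Iff.rfl
      inv_mem' := fun {g} hg x => by
        rw [← hg]
        change (g : Perm (Fin n)) ((g : Perm (Fin n)).symm x) ∈ Δ ↔ x ∈ Δ
        rw [Equiv.apply_symm_apply] }
  have hle : M ≤ St := by
    intro g hg x
    refine ⟨fun h => ?_, hΔ g hg x⟩
    have h1 := hΔ g⁻¹ (inv_mem hg) _ h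
    change (g : Perm (Fin n)).symm ((g : Perm (Fin n)) x) ∈ Δ at h1
    rwa [Equiv.symm_apply_apply] at h1
  have hne : St ≠ ⊤ := by
    intro h
    have : IsPretransitive (alternatingGroup (Fin n)) (Fin n) :=
      alternatingGroup.isPretransitive_of_three_le_card _ (by rw [Nat.card_fin]; omega)
    obtain ⟨g, hg⟩ := exists_smul_eq (alternatingGroup (Fin n)) a b
    have h1 : g ∈ St := by rw [h]; exact Subgroup.mem_top g
    apply hb
    rw [← hg]
    exact (h1 a).2 ha
  have hMS : M = St := by
    rcases hM.le_iff.1 hle with h | h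
    · exact absurd h hne
    · exact h.symm
  have hMτ : M.map (MulAut.conjNormal τ : MulAut (alternatingGroup (Fin n))).toMonoidHom = M := by
    rw [hMS]
    have h1 : St.map (MulAut.conjNormal τ : MulAut (alternatingGroup (Fin n))).toMonoidHom ≤ St := by
      rintro _ ⟨g, hg, rfl⟩ x
      change ((MulAut.conjNormal τ g : alternatingGroup (Fin n)) : Perm (Fin n)) x ∈ Δ ↔ x ∈ Δ
      rw [MulAut.conjNormal_apply]
      change τ ((g : Perm (Fin n)) (τ.symm x)) ∈ Δ ↔ x ∈ Δ
      rw [hτΔ, hg, ← hτΔ, Equiv.apply_symm_apply]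
    exact Subgroup.eq_of_le_of_card_ge h1 (by
      rw [Cfsg.Agent.H997.PF.card_map])
  -- the automorphism
  obtain ⟨s, hs⟩ := (Cfsg.Agent.S2119.result n (by omega) h6).2 φ
  have hconj : ∀ x : alternatingGroup (Fin n), (MulAut.conj x : MulAut (alternatingGroup (Fin n))) =
      MulAut.conjNormal (x : Perm (Fin n)) := by
    intro x
    ext g
    rfl
  by_cases hse : s ∈ alternatingGroup (Fin n)
  · exact ⟨⟨s, hse⟩, by rw [hconj, hs]⟩
  · have h1 : s * τ ∈ alternatingGroup (Fin n) := by
      rw [mem_alternatingGroup] at hse ⊢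
      rw [Perm.sign_mul, hτ, sign_swap huv]
      rcases Int.units_eq_one_or (sign s) with h | h
      · exact absurd h hse
      · rw [h]; rfl
    refine ⟨⟨s * τ, h1⟩, ?_⟩
    rw [hconj, ← hs]
    change _ = M.map (MulAut.conjNormal (s * τ) : MulAut (alternatingGroup (Fin n))).toMonoidHom
    rw [map_mul, Cfsg.Agent.H997.PF.map_mul_aut, hMτ]

/-- **`Alt n` is not the socle of a primitive factorization.** -/
theorem fac_alt {G : Type u} [Group G] {T A : Subgroup G} {φ : G ≃* G} (h : Cfsg.Agent.H997.PF.Fac T A φ) {n : ℕ}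
    (hn : 5 ≤ n) (h6 : n ≠ 6) (e : T ≃* alternatingGroup (Fin n))
    (hf : ¬ Cfsg.Agent.H938.Sax.PGap T (A.subgroupOf T)) : False := by
  have := h.fin
  have hT : T = ⊤ := by
    have h1 := h.index_dvd_out
    have h2 := h.index_ne
    rw [card_out_congr e, Cfsg.Agent.H171.AltGoal.card_out hn h6] at h1 h2
    exact Subgroup.index_eq_one.1 (((Nat.dvd_prime Nat.prime_two).1 h1).resolve_right h2)
  subst hT
  let f : G ≃* alternatingGroup (Fin n) := Subgroup.topEquiv.symm.trans e
  let ψ : MulAut (alternatingGroup (Fin n)) := (f.symm.trans φ).trans f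
  have hcm : ∀ K : Subgroup G, Nat.card (K.map f.toMonoidHom) = Nat.card K := fun K =>
    (Nat.card_congr (f.subgroupMap K).toEquiv).symm
  have hMc : IsCoatom (A.map f.toMonoidHom) := by
    refine ⟨fun h1 => h.coatom.1 ?_, fun K hK => ?_⟩
    · apply Subgroup.eq_top_of_card_eq
      rw [← hcm A, h1, Subgroup.card_top, ← Nat.card_congr f.toEquiv]
    · have h2 : A < K.comap f.toMonoidHom := by
        refine lt_of_le_of_ne (Subgroup.map_le_iff_le_comap.1 hK.le) fun h3 => hK.ne ?_
        rw [h3, Subgroup.map_comap_eq_self_of_surjective f.surjective]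
      have h3 := h.coatom.2 _ h2
      rw [eq_top_iff]
      intro x _
      have h4 : f.symm x ∈ K.comap f.toMonoidHom := by rw [h3]; exact Subgroup.mem_top _
      have h5 : f (f.symm x) ∈ K := h4
      rwa [MulEquiv.apply_symm_apply] at h5
  have hMf : ¬ PGap (alternatingGroup (Fin n)) (A.map f.toMonoidHom) := by
    rintro ⟨r, hr, h1, h2⟩
    refine hf ⟨r, hr, ?_, ?_⟩
    · rwa [Nat.card_congr e.toEquiv]
    · rw [card_subgroupOf, inf_top_eq]
      rwa [hcm] at h2
  obtain ⟨x, hx⟩ := conj_of_full hn h6 _ hMc hMf ψ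
  refine h.not_conj (f.symm x) ?_
  apply Subgroup.map_injective (f := f.toMonoidHom) f.injective
  have h1 : (A.map φ.toMonoidHom).map f.toMonoidHom = (A.map f.toMonoidHom).map ψ.toMonoidHom := by
    rw [Subgroup.map_map, Subgroup.map_map]
    congr 1
    refine MonoidHom.ext fun g => ?_
    change f (φ g) = f (φ (f.symm (f g)))
    rw [MulEquiv.symm_apply_apply]
  have h2 : (A.map (MulAut.conj (f.symm x)).toMonoidHom).map f.toMonoidHom =
      (A.map f.toMonoidHom).map (MulAut.conj x).toMonoidHom := by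
    rw [Subgroup.map_map, Subgroup.map_map]
    congr 1
    refine MonoidHom.ext fun g => ?_
    change f (f.symm x * g * (f.symm x)⁻¹) = x * f g * x⁻¹
    rw [map_mul, map_mul, map_inv, MulEquiv.apply_symm_apply]
  rw [h1, h2, hx]

end Cfsg.Agent.H783.FacAlt
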