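import Mathlib
import Cfsg.Agent.H579.SLStab
import Cfsg.Agent.H581.HC
import Cfsg.Agent.Lib.Zsigmondy

/-!
# Hall coverings of `PSL_n(q)` (helper783, for S4388)

`hc_psl` : `PSL_n(q)`, `n ≥ 4`, has no Hall covering; `hc_psl_three` : the same for `n = 3`, `3 ∣ q - 1`, `q ≠ 4`.
-/

set_option autoImplicit false

namespace Cfsg.Agent.H783.HallPSL

open Module Matrix Cfsg.Agent.H579.SLStab Cfsg.Agent.H581

section Fields

variable {F : Type*} [Field F] [Finite F] {E : Type*} [Field E] [Finite E] [Algebra F E]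

/-- no proper nonzero subspace is invariant under multiplication by `c` -/
def Gen (F : Type*) {E : Type*} [Field F] [Field E] [Algebra F E] (c : E) : Prop :=
  ∀ U : Submodule F E, (∀ x ∈ U, c * x ∈ U) → U = ⊥ ∨ U = ⊤

omit [Finite F] [Finite E] in
theorem gen_of_adjoin {c : E} (h : Algebra.adjoin F {c} = ⊤) : Gen F c := by
  intro U hU
  by_cases hb : U = ⊥
  · exact Or.inl hb
  right
  obtain ⟨v, hv, hv0⟩ := Submodule.exists_mem_ne_zero_of_ne_bot hb
  have key : ∀ a ∈ Algebra.adjoin F {c}, ∀ x ∈ U, a * x ∈ U := by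
    intro a ha
    induction ha using Algebra.adjoin_induction with
    | mem x hx => rw [Set.mem_singleton_iff] at hx; subst hx; exact hU
    | algebraMap r => intro x hx; rw [← Algebra.smul_def]; exact U.smul_mem _ hx
    | add a b _ _ ha hb => intro x hx; rw [add_mul]; exact U.add_mem (ha x hx) (hb x hx)
    | mul a b _ _ ha hb => intro x hx; rw [mul_assoc]; exact ha _ (hb x hx)
  rw [eq_top_iff]
  intro e _
  have h1 : e / v * v ∈ U := key _ (by rw [h]; trivial) v hv
  rwa [div_mul_cancel₀ _ hv0] at h1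

/-- an element whose order divides no `q ^ d - 1`, `d < m`, generates -/
theorem gen_of_order {m : ℕ} (hm : 0 < m) (hE : finrank F E = m) (c : Eˣ)
    (h : ∀ d, d ∣ m → d < m → ¬ orderOf c ∣ Nat.card F ^ d - 1) : Gen F (c : E) := by
  apply gen_of_adjoin
  have : FiniteDimensional F E := Module.Finite.of_finite
  set L : IntermediateField F E := IntermediateField.adjoin F {(c : E)} with hL
  have hint : IsIntegral F (c : E) := IsIntegral.of_finite F _
  have hLs : L.toSubalgebra = Algebra.adjoin F {(c : E)} :=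
    IntermediateField.adjoin_simple_toSubalgebra_of_isAlgebraic hint.isAlgebraic
  have hd : finrank F L ∣ m := by
    rw [← hE, ← finrank_mul_finrank F L E]
    exact dvd_mul_right _ _
  have : Fintype L := Fintype.ofFinite L
  have hcL : Nat.card L = Nat.card F ^ finrank F L := by
    have := Fintype.ofFinite F
    rw [Nat.card_eq_fintype_card, Nat.card_eq_fintype_card, Module.card_eq_pow_finrank (K := F) (V := L)]
  have hmem : (c : E) ∈ L := IntermediateField.mem_adjoin_simple_self F _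
  have hsd : orderOf c ∣ Nat.card F ^ finrank F L - 1 := by
    rw [orderOf_dvd_iff_pow_eq_one]
    apply Units.ext
    have h1 : (⟨(c : E), hmem⟩ : L) ≠ 0 := by
      intro h
      exact c.ne_zero (congrArg Subtype.val h)
    have h2 := FiniteField.pow_card_sub_one_eq_one (⟨(c : E), hmem⟩ : L) h1
    rw [← Nat.card_eq_fintype_card, hcL] at h2
    have h3 := congrArg (Subtype.val : L → E) h2
    simpa using h3
  have hm' : finrank F L = m := by
    by_contra hne
    exact h _ hd (lt_of_le_of_ne (Nat.le_of_dvd hm hd) hne) hsd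
  rw [← hLs]
  have : L = ⊤ := by
    apply IntermediateField.eq_of_le_of_finrank_eq le_top
    rw [hm', IntermediateField.finrank_top', hE]
  rw [this]
  rfl

theorem geom (q m : ℕ) (hq : 1 < q) : (q - 1) * ∑ i ∈ Finset.range m, q ^ i = q ^ m - 1 := by
  have := Nat.geomSum_eq (m := q) (by omega) m
  rw [this]
  exact Nat.mul_div_cancel' (Nat.sub_one_dvd_pow_sub_one _ _)

/-- elements of norm one of given order -/
theorem exists_norm_one {m : ℕ} (hE : finrank F E = m) {d : ℕ}
    (hd : d ∣ ∑ i ∈ Finset.range m, Nat.card F ^ i) :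
    ∃ c : Eˣ, orderOf c = d ∧ Algebra.norm F (c : E) = 1 := by
  have : FiniteDimensional F E := Module.Finite.of_finite
  have hq1 : 1 < Nat.card F := Finite.one_lt_card
  have hcE : Nat.card E = Nat.card F ^ m := by
    have := Fintype.ofFinite F
    have := Fintype.ofFinite E
    rw [Nat.card_eq_fintype_card, Nat.card_eq_fintype_card, Module.card_eq_pow_finrank (K := F) (V := E), hE]
  have hcu : Nat.card Eˣ = Nat.card F ^ m - 1 := by rw [Nat.card_units, hcE]
  have hdd : d ∣ Nat.card Eˣ := by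
    rw [hcu, ← geom _ _ hq1]
    exact hd.mul_left _
  obtain ⟨g, hg⟩ := IsCyclic.exists_generator (α := Eˣ)
  have hog : orderOf g = Nat.card Eˣ := orderOf_eq_card_of_forall_mem_zpowers hg
  have hN0 : Nat.card Eˣ ≠ 0 := Nat.card_pos.ne'
  refine ⟨g ^ (Nat.card Eˣ / d), ?_, ?_⟩
  · rw [orderOf_pow, hog, Nat.gcd_eq_right (Nat.div_dvd_of_dvd hdd), Nat.div_div_self hdd hN0]
  · apply (algebraMap F E).injective
    rw [FiniteField.algebraMap_norm_eq_pow, map_one, ← Units.val_pow_eq_pow_val, Units.val_eq_one,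
      ← pow_mul]
    have h1 : (Nat.card E - 1) / (Nat.card F - 1) = ∑ i ∈ Finset.range m, Nat.card F ^ i := by
      rw [hcE, ← geom _ _ hq1, Nat.mul_div_cancel_left _ (by omega)]
    rw [h1]
    obtain ⟨t, ht⟩ := hd
    rw [ht, ← mul_assoc, Nat.div_mul_cancel hdd, pow_mul, ← hog, pow_orderOf_eq_one, one_pow]

end Fields

section Rep

variable {F : Type*} [Field F] {n : ℕ} {V : Type*} [AddCommGroup V] [Module F V]

/-- `SL_n` acting on a space of dimension `n` -/
noncomputable def Phi (e : (Fin n → F) ≃ₗ[F] V) : Matrix.SpecialLinearGroup (Fin n) F →* Module.End F V where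
  toFun x := e.conj (toLinAlgEquiv' (x : Matrix (Fin n) (Fin n) F))
  map_one' := by
    rw [Matrix.SpecialLinearGroup.coe_one, map_one]
    ext v
    simp [LinearEquiv.conj_apply]
  map_mul' a b := by
    rw [Matrix.SpecialLinearGroup.coe_mul, map_mul]
    ext v
    simp [LinearEquiv.conj_apply]

theorem Phi_apply (e : (Fin n → F) ≃ₗ[F] V) (x : Matrix.SpecialLinearGroup (Fin n) F) (w : Fin n → F) :
    Phi e x (e w) = e (x • w) := by
  show e (toLinAlgEquiv' (x : Matrix (Fin n) (Fin n) F) (e.symm (e w))) = _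
  rw [e.symm_apply_apply]
  rfl

theorem Phi_injective (e : (Fin n → F) ≃ₗ[F] V) : Function.Injective (Phi e) := by
  intro a b h
  apply Subtype.ext
  exact (toLinAlgEquiv' : Matrix (Fin n) (Fin n) F ≃ₐ[F] _).injective (e.conj.injective h)

theorem exists_Phi (e : (Fin n → F) ≃ₗ[F] V) (T : Module.End F V) (hT : LinearMap.det T = 1) :
    ∃ x : Matrix.SpecialLinearGroup (Fin n) F, Phi e x = T := by
  obtain ⟨M, hM⟩ := (toLinAlgEquiv' : Matrix (Fin n) (Fin n) F ≃ₐ[F] _).surjective (e.symm.conj T)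
  have hd : M.det = 1 := by
    rw [← LinearMap.det_toLin' M]
    have h1 : toLin' M = e.symm.conj T := hM
    rw [h1, ← hT]
    exact LinearMap.det_conj T e.symm
  refine ⟨⟨M, hd⟩, ?_⟩
  show e.conj (toLinAlgEquiv' M) = T
  rw [hM]
  ext v
  simp [LinearEquiv.conj_apply]

theorem not_mem_center (e : (Fin n → F) ≃ₗ[F] V) {x : Matrix.SpecialLinearGroup (Fin n) F}
    (h : ∀ c : F, Phi e x ≠ c • (1 : Module.End F V)) : x ∉ Subgroup.center (Matrix.SpecialLinearGroup (Fin n) F) := by
  intro hx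
  obtain ⟨c, -, hc⟩ := Matrix.SpecialLinearGroup.mem_center_iff.1 hx
  apply h c
  show e.conj (toLinAlgEquiv' (x : Matrix (Fin n) (Fin n) F)) = _
  rw [← hc]
  ext v
  have h1 : (toLinAlgEquiv' (scalar (Fin n) c)) (e.symm v) = c • e.symm v := by
    show (scalar (Fin n) c).mulVec (e.symm v) = _
    rw [scalar_apply, ← smul_one_eq_diagonal, smul_mulVec, one_mulVec]
  show e ((toLinAlgEquiv' (scalar (Fin n) c)) (e.symm v)) = _
  rw [h1, map_smul, e.apply_symm_apply]
  rfl

/-- the projection -/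
abbrev pr (F : Type*) [Field F] (n : ℕ) :
    Matrix.SpecialLinearGroup (Fin n) F →* ProjectiveSpecialLinearGroup (Fin n) F :=
  QuotientGroup.mk' (Subgroup.center _)

theorem dvd_orderOf_pr [Finite F] {x : Matrix.SpecialLinearGroup (Fin n) F}
    (hx : x ∉ Subgroup.center (Matrix.SpecialLinearGroup (Fin n) F)) {r k : ℕ} (hr : r.Prime) (h : x ^ r ^ k = 1) :
    r ∣ orderOf (pr F n x) := by
  have h1 : pr F n x ≠ 1 := fun h => hx ((QuotientGroup.eq_one_iff x).1 h)
  have h2 : orderOf (pr F n x) ∣ r ^ k := by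
    apply orderOf_dvd_of_pow_eq_one
    rw [← map_pow, h, map_one]
  obtain ⟨j, -, hj⟩ := (Nat.dvd_prime_pow hr).1 h2
  rw [hj]
  rcases Nat.eq_zero_or_pos j with rfl | h0
  · rw [pow_zero, orderOf_eq_one_iff] at hj
    exact absurd hj h1
  · exact dvd_pow_self r h0.ne'

end Rep

section Main

variable {F : Type*} [Field F] [Finite F] {n : ℕ} {σ : Set ℕ}

/-- a Hall subgroup stabilises a subspace -/
theorem exists_stab_hall {p : ℕ} [Fact p.Prime] [CharP F p] (hn : 2 ≤ n)
    (hc : HC (ProjectiveSpecialLinearGroup (Fin n) F) σ) (hp : p ∈ σ)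
    {H : Subgroup (ProjectiveSpecialLinearGroup (Fin n) F)} (hH : IsHallFor σ H) :
    ∃ W : Submodule F (Fin n → F), W ≠ ⊥ ∧ W ≠ ⊤ ∧ ∀ x, pr F n x ∈ H → x ∈ Stab W := by
  have := Fintype.ofFinite F
  have h1 : ¬ p ∣ (H.comap (pr F n)).index := by
    rw [Subgroup.index_comap_of_surjective _ (QuotientGroup.mk'_surjective _)]
    exact hH.index p (Fact.out) hp
  have h2 : H.comap (pr F n) ≠ ⊤ := by
    intro h
    apply hc.ne_top hH
    rw [eq_top_iff]
    intro g _
    obtain ⟨x, rfl⟩ := QuotientGroup.mk'_surjective _ g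
    have : x ∈ H.comap (pr F n) := by rw [h]; trivial
    exact this
  obtain ⟨W, hW1, hW2, hW3⟩ := exists_stab p hn h1 h2
  exact ⟨W, hW1, hW2, fun x hx => hW3 hx⟩

/-- moving an `r`-element into the Hall subgroup -/
theorem exists_invt {W : Submodule F (Fin n → F)} {H : Subgroup (ProjectiveSpecialLinearGroup (Fin n) F)}
    (hH : IsHallFor σ H) (hW : ∀ x, pr F n x ∈ H → x ∈ Stab W) {r : ℕ} (hr : r.Prime) (hrσ : r ∈ σ)
    {R : Subgroup (ProjectiveSpecialLinearGroup (Fin n) F)} (hR : IsPGroup r R) :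
    ∃ W' : Submodule F (Fin n → F), finrank F W' = finrank F W ∧ (W' = ⊥ → W = ⊥) ∧ (W' = ⊤ → W = ⊤) ∧
      ∀ x, pr F n x ∈ R → ∀ w ∈ W', x • w ∈ W' := by
  have : Fintype F := Fintype.ofFinite F
  obtain ⟨g, hg⟩ := hH.exists_conj_le hr hrσ hR
  obtain ⟨g, rfl⟩ := QuotientGroup.mk'_surjective _ g
  let eg : (Fin n → F) ≃ₗ[F] (Fin n → F) :=
    { toFun := fun w => g⁻¹ • w
      invFun := fun w => g • w
      map_add' := fun a b => smul_add _ _ _
      map_smul' := fun c a => by
        show g⁻¹ • (c • a) = c • (g⁻¹ • a)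
        exact smul_comm _ _ _
      left_inv := fun w => smul_inv_smul _ _
      right_inv := fun w => inv_smul_smul _ _ }
  refine ⟨W.map (eg : (Fin n → F) →ₗ[F] (Fin n → F)), LinearEquiv.finrank_map_eq eg W, ?_, ?_, ?_⟩
  · intro h
    exact (Submodule.map_eq_bot_iff (p := W) (e := eg)).1 h
  · intro h
    rw [eq_top_iff]
    intro w _
    have h1 : eg w ∈ W.map (eg : (Fin n → F) →ₗ[F] (Fin n → F)) := by rw [h]; trivial
    obtain ⟨w', hw', h2⟩ := h1
    have : w' = w := eg.injective h2
    rwa [← this]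
  · rintro x hx _ ⟨w, hw, rfl⟩
    have h1 : pr F n (g * x * g⁻¹) ∈ H := hg ⟨pr F n x, hx, by simp⟩
    have h2 : (g * x * g⁻¹) • w ∈ W := (hW _ h1 w).2 hw
    refine ⟨_, h2, ?_⟩
    show g⁻¹ • ((g * x * g⁻¹) • w) = x • (g⁻¹ • w)
    rw [← mul_smul, ← mul_smul]
    congr 1
    group

/-- adjacency of primes through non-central commuting elements of `SL_n` -/
theorem adj_of (hc : HC (ProjectiveSpecialLinearGroup (Fin n) F) σ) {x y : Matrix.SpecialLinearGroup (Fin n) F}
    (hx : x ∉ Subgroup.center (Matrix.SpecialLinearGroup (Fin n) F))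
    (hy : y ∉ Subgroup.center (Matrix.SpecialLinearGroup (Fin n) F)) (hxy : Commute x y) {r i s j : ℕ} (hr : r.Prime)
    (hs : s.Prime) (hxr : x ^ r ^ i = 1) (hys : y ^ s ^ j = 1) (hrσ : r ∈ σ) : s ∈ σ :=
  hc.commute hrσ (hxy.map (pr F n)) hr hs (dvd_orderOf_pr hx hr hxr) (dvd_orderOf_pr hy hs hys)

end Main

section Elements

variable {F : Type*} [Field F] {E : Type*} [Field E] [Algebra F E] {W : Type*} [AddCommGroup W] [Module F W]

/-- multiplication by `a` on `E`, and `g` on `W` -/
def TT (a : E) (g : Module.End F W) : Module.End F (E × W) := LinearMap.prodMap (LinearMap.mulLeft F a) g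

theorem TT_apply (a : E) (g : Module.End F W) (x : E × W) : TT a g x = (a * x.1, g x.2) := rfl

theorem TT_mul (a b : E) (g h : Module.End F W) : TT a g * TT b h = TT (a * b) (g * h) := by
  ext x <;> simp [TT_apply, mul_assoc]

theorem TT_one : TT (1 : E) (1 : Module.End F W) = 1 := by
  ext x <;> simp [TT_apply]

theorem TT_pow (a : E) (g : Module.End F W) (k : ℕ) : TT a g ^ k = TT (a ^ k) (g ^ k) := by
  induction k with
  | zero => simp [TT_one]
  | succ k ih => rw [pow_succ, ih, TT_mul, pow_succ, pow_succ]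

theorem TT_det [FiniteDimensional F E] [FiniteDimensional F W] (a : E) (g : Module.End F W) :
    LinearMap.det (TT a g) = Algebra.norm F a * LinearMap.det g := by
  rw [Algebra.norm_apply]
  exact LinearMap.det_prodMap _ _

theorem TT_scalar {a : E} {g : Module.End F W} {c : F} (h : TT a g = c • (1 : Module.End F (E × W))) :
    a = algebraMap F E c ∧ g = c • (1 : Module.End F W) := by
  constructor
  · have h1 := congrArg Prod.fst (LinearMap.congr_fun h (1, 0))
    rw [TT_apply] at h1
    simpa [Algebra.algebraMap_eq_smul_one] using h1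
  · ext w
    have h1 := congrArg Prod.snd (LinearMap.congr_fun h (0, w))
    rw [TT_apply] at h1
    simpa using h1

theorem TT_ne_scalar_of_order [Finite F] {a : Eˣ} (ha : ¬ orderOf a ∣ Nat.card F - 1) (g : Module.End F W) (c : F) :
    TT (a : E) g ≠ c • (1 : Module.End F (E × W)) := by
  intro h
  have := Fintype.ofFinite F
  obtain ⟨h1, -⟩ := TT_scalar h
  apply ha
  have hc : c ≠ 0 := by
    rintro rfl
    rw [map_zero] at h1
    exact a.ne_zero h1
  have h2 := FiniteField.pow_card_sub_one_eq_one c hc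
  rw [← Nat.card_eq_fintype_card] at h2
  apply orderOf_dvd_of_pow_eq_one
  apply Units.ext
  rw [Units.val_pow_eq_pow_val, h1, ← map_pow, h2, map_one, Units.val_one]

theorem TT_ne_scalar [Nontrivial W] {a : E} (ha : a ≠ 1) (c : F) :
    TT a (1 : Module.End F W) ≠ c • (1 : Module.End F (E × W)) := by
  intro h
  obtain ⟨h1, h2⟩ := TT_scalar h
  obtain ⟨w, hw⟩ := exists_ne (0 : W)
  have h3 := LinearMap.congr_fun h2 w
  have h4 : w = c • w := h3
  have h5 : (1 - c) • w = 0 := by rw [sub_smul, one_smul, ← h4, sub_self]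
  rcases smul_eq_zero.1 h5 with h6 | h6
  · have : c = 1 := (sub_eq_zero.1 h6).symm
    rw [this, map_one] at h1
    exact ha h1
  · exact hw h6

theorem TT_ne_scalar' {g : Module.End F W} (hg : g ≠ 1) (c : F) :
    TT (1 : E) g ≠ c • (1 : Module.End F (E × W)) := by
  intro h
  obtain ⟨h1, h2⟩ := TT_scalar h
  have h3 : c = 1 := by
    apply (algebraMap F E).injective
    rw [← h1, map_one]
  rw [h3, one_smul] at h2
  exact hg h2

/-- invariant subspaces -/
theorem invt_cases {y : E} (hy : Gen F y) (hy1 : y ≠ 1) (U : Submodule F (E × W))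
    (hU : ∀ x ∈ U, TT y (1 : Module.End F W) x ∈ U) : (∀ x ∈ U, x.1 = 0) ∨ ∀ a : E, (a, 0) ∈ U := by
  by_cases h : ∀ x ∈ U, x.1 = 0
  · exact Or.inl h
  right
  push Not at h
  obtain ⟨x, hx, hx1⟩ := h
  have h1 : ((y - 1) * x.1, (0 : W)) ∈ U := by
    have := U.sub_mem (hU x hx) hx
    rw [TT_apply] at this
    have e1 : (y * x.1, (1 : Module.End F W) x.2) - x = ((y - 1) * x.1, (0 : W)) := by
      ext
      · show y * x.1 - x.1 = (y - 1) * x.1
        ring
      · show x.2 - x.2 = 0
        exact sub_self _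
    rwa [e1] at this
  rcases hy (U.comap (LinearMap.inl F E W)) (by
    intro a ha
    have := hU _ (show ((a, 0) : E × W) ∈ U from ha)
    rw [TT_apply] at this
    simpa using this) with h2 | h2
  · exfalso
    have h3 : (y - 1) * x.1 ∈ U.comap (LinearMap.inl F E W) := h1
    rw [h2, Submodule.mem_bot] at h3
    rcases mul_eq_zero.1 h3 with h4 | h4
    · exact hy1 (sub_eq_zero.1 h4)
    · exact hx1 h4
  · intro a
    have h3 : a ∈ U.comap (LinearMap.inl F E W) := by rw [h2]; trivial
    exact h3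

end Elements

section Numbers

theorem exists_rj (q : ℕ) (hq : 2 ≤ q) : ∃ r j : ℕ, r.Prime ∧ r ^ j ∣ q + 1 ∧ ¬ r ^ j ∣ q - 1 := by
  by_contra h
  push Not at h
  have h1 : q + 1 ∣ q - 1 := (Nat.dvd_iff_prime_pow_dvd_dvd _ _).2 fun r j hr hd => h r j hr hd
  exact absurd (Nat.le_of_dvd (by omega) h1) (by omega)

theorem add_one_dvd_geom (q : ℕ) {m : ℕ} (hm : Even m) : q + 1 ∣ ∑ i ∈ Finset.range m, q ^ i := by
  obtain ⟨l, rfl⟩ := hm
  induction l with
  | zero => simp
  | succ l ih =>
    have h1 : l + 1 + (l + 1) = l + l + 1 + 1 := by ring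
    rw [h1, Finset.sum_range_succ, Finset.sum_range_succ, add_assoc]
    refine dvd_add ih ⟨q ^ (l + l), ?_⟩
    ring

theorem dvd_geom {q m s : ℕ} (hq : 2 ≤ q) (hs : s.Prime) (h : s ∣ q ^ m - 1) (h1 : ¬ s ∣ q - 1) :
    s ∣ ∑ i ∈ Finset.range m, q ^ i := by
  rw [← geom q m hq, hs.dvd_mul] at h
  exact h.resolve_left h1

end Numbers

section Prime

variable {F : Type*} [Field F] [Finite F] {n : ℕ} {σ : Set ℕ}

/-- the characteristic and the primes dividing `q + 1` are in `σ` -/
theorem primes_mem {p : ℕ} [hpf : Fact p.Prime] [CharP F p] (hn : 4 ≤ n)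
    (hc : HC (ProjectiveSpecialLinearGroup (Fin n) F) σ) :
    p ∈ σ ∧ ∀ r : ℕ, r.Prime → r ∣ Nat.card F + 1 → r ∈ σ := by
  obtain ⟨k, rfl⟩ : ∃ k, n = 2 + k := ⟨n - 2, by omega⟩
  have hk : 2 ≤ k := by omega
  set E := FiniteField.Extension F p 2
  have hE : finrank F E = 2 := FiniteField.finrank_extension F p 2
  have hfin : Finite E := inferInstance
  have : FiniteDimensional F E := Module.Finite.of_finite
  have hV : finrank F (Fin (2 + k) → F) = finrank F (E × (Fin k → F)) := by
    rw [finrank_fin_fun, finrank_prod, hE, finrank_fin_fun]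
  let e : (Fin (2 + k) → F) ≃ₗ[F] E × (Fin k → F) := LinearEquiv.ofFinrankEq _ _ hV
  have : Nonempty (Fin k) := ⟨⟨0, by omega⟩⟩
  -- the transvection
  let i : Fin k := ⟨0, by omega⟩
  let j : Fin k := ⟨1, by omega⟩
  have hij : i ≠ j := by
    intro h
    have := congrArg Fin.val h
    simp [i, j] at this
  let τ : Module.End F (Fin k → F) := toLinAlgEquiv' (transvection i j (1 : F))
  have hτdet : LinearMap.det τ = 1 := by
    have h1 : LinearMap.det τ = (transvection i j (1 : F)).det := LinearMap.det_toLin' _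
    rw [h1, det_transvection_of_ne _ _ hij]
  have hτ1 : τ ≠ 1 := by
    intro h
    have h1 : transvection i j (1 : F) = 1 := by
      apply (toLinAlgEquiv' : Matrix (Fin k) (Fin k) F ≃ₐ[F] _).injective
      rw [map_one]; exact h
    have h2 := congrFun (congrFun h1 i) j
    rw [transvection, Matrix.add_apply, Matrix.one_apply_ne hij, Matrix.single_apply_same, zero_add] at h2
    exact one_ne_zero h2
  have hτp : τ ^ p = 1 := by
    have h1 : (transvection i j (1 : F)) ^ p = 1 := by
      have : CharP (Matrix (Fin k) (Fin k) F) p := Matrix.charP p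
      rw [transvection, add_pow_char_of_commute p (Commute.one_left _), one_pow]
      have h2 : (Matrix.single i j (1 : F)) ^ p = 0 := by
        obtain ⟨t, ht⟩ : ∃ t, p = t + 2 := ⟨p - 2, by have := hpf.out.two_le; omega⟩
        rw [ht, pow_add, pow_two, Matrix.single_mul_single_of_ne _ _ _ _ hij.symm, mul_zero]
      rw [h2, add_zero]
    show (toLinAlgEquiv' (transvection i j (1 : F))) ^ p = 1
    rw [← map_pow, h1, map_one]
  obtain ⟨t, ht⟩ := exists_Phi e (TT (1 : E) τ) (by rw [TT_det, map_one, hτdet, one_mul])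
  have htc : t ∉ Subgroup.center (Matrix.SpecialLinearGroup (Fin (2 + k)) F) :=
    not_mem_center e fun c => by rw [ht]; exact TT_ne_scalar' hτ1 c
  have htp : t ^ p ^ 1 = 1 := by
    apply Phi_injective e
    rw [map_pow, ht, TT_pow, one_pow, pow_one, hτp, TT_one, map_one]
  have key : ∀ r : ℕ, r.Prime → r ∣ Nat.card F + 1 → (r ∈ σ ↔ p ∈ σ) := by
    intro r hr hd
    obtain ⟨c, hc1, hc2⟩ := exists_norm_one (F := F) (E := E) hE (d := r) (by
      have : Nat.card F + 1 = ∑ i ∈ Finset.range 2, Nat.card F ^ i := by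
        simp [Finset.sum_range_succ, add_comm]
      rw [← this]; exact hd)
    obtain ⟨x, hx⟩ := exists_Phi e (TT (c : E) (1 : Module.End F (Fin k → F)))
      (by rw [TT_det, hc2, map_one, one_mul])
    have hcne : (c : E) ≠ 1 := by
      intro h
      rw [Units.val_eq_one] at h
      rw [h, orderOf_one] at hc1
      exact hr.one_lt.ne hc1
    have hxc : x ∉ Subgroup.center (Matrix.SpecialLinearGroup (Fin (2 + k)) F) :=
      not_mem_center e fun c => by rw [hx]; exact TT_ne_scalar hcne c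
    have hxr : x ^ r ^ 1 = 1 := by
      apply Phi_injective e
      rw [map_pow, hx, TT_pow, pow_one, one_pow, ← Units.val_pow_eq_pow_val, ← hc1, pow_orderOf_eq_one,
        Units.val_one, TT_one, map_one]
    have hxt : Commute x t := by
      apply Phi_injective e
      rw [map_mul, map_mul, hx, ht, TT_mul, TT_mul]
      simp
    exact ⟨fun h => adj_of hc hxc htc hxt hr hpf.out hxr htp h,
      fun h => adj_of hc htc hxc hxt.symm hpf.out hr htp hxr h⟩
  have hp : p ∈ σ := by
    by_cases h2 : 2 ∣ Nat.card F + 1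
    · exact (key 2 Nat.prime_two h2).1 hc.two
    · have : Fintype F := Fintype.ofFinite F
      obtain ⟨f, -, hf⟩ := FiniteField.card F p
      have h3 : p = 2 := by
        rcases hpf.out.eq_two_or_odd' with h | h
        · exact h
        · exfalso
          apply h2
          rw [Nat.card_eq_fintype_card, hf]
          have : Odd (p ^ (f : ℕ)) := h.pow
          exact (this.add_odd odd_one).two_dvd
      rw [h3]
      exact hc.two
  exact ⟨hp, fun r hr hd => (key r hr hd).2 hp⟩

/-- the elements of the big torus -/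
theorem exists_torus {p : ℕ} [hpf : Fact p.Prime] [CharP F p] {m k : ℕ} (hm : 4 ≤ m) (hme : Even m)
    (hc : HC (ProjectiveSpecialLinearGroup (Fin (m + k)) F) σ) :
    ∃ (s : ℕ) (y : Matrix.SpecialLinearGroup (Fin (m + k)) F), s.Prime ∧ s ∈ σ ∧ (∃ j, y ^ s ^ j = 1) ∧
      y ∉ Subgroup.center (Matrix.SpecialLinearGroup (Fin (m + k)) F) ∧
      ∀ W : Submodule F (Fin (m + k) → F), (∀ w ∈ W, y • w ∈ W) → finrank F W ≤ k ∨ m ≤ finrank F W := by
  obtain ⟨hp, hr⟩ := primes_mem (p := p) (by omega) hc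
  have hq2 : 2 ≤ Nat.card F := Finite.one_lt_card
  have : NeZero m := ⟨by omega⟩
  set E := FiniteField.Extension F p m
  have hE : finrank F E = m := FiniteField.finrank_extension F p m
  have hfin : Finite E := inferInstance
  have : FiniteDimensional F E := Module.Finite.of_finite
  have hV : finrank F (Fin (m + k) → F) = finrank F (E × (Fin k → F)) := by
    rw [finrank_fin_fun, finrank_prod, hE, finrank_fin_fun]
  let e : (Fin (m + k) → F) ≃ₗ[F] E × (Fin k → F) := LinearEquiv.ofFinrankEq _ _ hV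
  -- the element `z`
  obtain ⟨r, j, hrp, hrd, hrn⟩ := exists_rj (Nat.card F) hq2
  have hj : j ≠ 0 := by
    rintro rfl
    exact hrn (by simp)
  have hrσ : r ∈ σ := hr r hrp ((dvd_pow_self r hj).trans hrd)
  obtain ⟨z, hz1, hz2⟩ := exists_norm_one (F := F) (E := E) hE (hrd.trans (add_one_dvd_geom _ hme))
  obtain ⟨x, hx⟩ := exists_Phi e (TT (z : E) (1 : Module.End F (Fin k → F)))
    (by rw [TT_det, hz2, map_one, one_mul])
  have hxc : x ∉ Subgroup.center (Matrix.SpecialLinearGroup (Fin (m + k)) F) :=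
    not_mem_center e fun c => by rw [hx]; exact TT_ne_scalar_of_order (by rw [hz1]; exact hrn) _ c
  have hxr : x ^ r ^ j = 1 := by
    apply Phi_injective e
    rw [map_pow, hx, TT_pow, one_pow, ← Units.val_pow_eq_pow_val, ← hz1, pow_orderOf_eq_one,
      Units.val_one, TT_one, map_one]
  -- the element `y`
  have main : ∀ (s i : ℕ), s.Prime → s ^ i ∣ ∑ i ∈ Finset.range m, Nat.card F ^ i →
      (∀ d, d ∣ m → d < m → ¬ s ^ i ∣ Nat.card F ^ d - 1) → 
      ∃ (s : ℕ) (y : Matrix.SpecialLinearGroup (Fin (m + k)) F), s.Prime ∧ s ∈ σ ∧ (∃ j, y ^ s ^ j = 1) ∧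
      y ∉ Subgroup.center (Matrix.SpecialLinearGroup (Fin (m + k)) F) ∧
      ∀ W : Submodule F (Fin (m + k) → F), (∀ w ∈ W, y • w ∈ W) → finrank F W ≤ k ∨ m ≤ finrank F W := by
    intro s i hs hd1 hd2
    obtain ⟨c, hc1, hc2⟩ := exists_norm_one (F := F) (E := E) hE hd1
    obtain ⟨y, hy⟩ := exists_Phi e (TT (c : E) (1 : Module.End F (Fin k → F)))
      (by rw [TT_det, hc2, map_one, one_mul])
    have hgen : Gen F (c : E) := gen_of_order (by omega) hE c (by rw [hc1]; exact hd2)
    have h11 : ¬ s ^ i ∣ Nat.card F - 1 := by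
      have := hd2 1 (one_dvd _) (by omega)
      rwa [pow_one] at this
    have hyc : y ∉ Subgroup.center (Matrix.SpecialLinearGroup (Fin (m + k)) F) :=
      not_mem_center e fun c' => by rw [hy]; exact TT_ne_scalar_of_order (by rw [hc1]; exact h11) _ c'
    have hys : y ^ s ^ i = 1 := by
      apply Phi_injective e
      rw [map_pow, hy, TT_pow, one_pow, ← Units.val_pow_eq_pow_val, ← hc1, pow_orderOf_eq_one,
        Units.val_one, TT_one, map_one]
    have hxy : Commute x y := by
      apply Phi_injective e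
      rw [map_mul, map_mul, hx, hy, TT_mul, TT_mul, mul_comm (z : E)]
    have hcne : (c : E) ≠ 1 := by
      intro h
      rw [Units.val_eq_one] at h
      rw [h, orderOf_one] at hc1
      rw [← hc1] at h11
      exact h11 (one_dvd _)
    refine ⟨s, y, hs, adj_of hc hxc hyc hxy hrp hs hxr hys hrσ, ⟨i, hys⟩, hyc, ?_⟩
    intro W hW
    set U : Submodule F (E × (Fin k → F)) := W.map (e : (Fin (m + k) → F) →ₗ[F] E × (Fin k → F)) with hU
    have hfr : finrank F U = finrank F W := LinearEquiv.finrank_map_eq e W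
    rcases invt_cases hgen hcne U (by
      rintro _ ⟨w, hw, rfl⟩
      rw [← hy]
      exact ⟨y • w, hW w hw, (Phi_apply e y w).symm⟩) with h | h
    · left
      rw [← hfr]
      have h1 : U ≤ LinearMap.range (LinearMap.inr F E (Fin k → F)) := by
        intro u hu
        exact ⟨u.2, Prod.ext (h u hu).symm rfl⟩
      calc finrank F U ≤ finrank F (LinearMap.range (LinearMap.inr F E (Fin k → F))) :=
            Submodule.finrank_mono h1
        _ ≤ finrank F (Fin k → F) := LinearMap.finrank_range_le _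
        _ = k := finrank_fin_fun _
    · right
      rw [← hfr]
      have h1 : LinearMap.range (LinearMap.inl F E (Fin k → F)) ≤ U := by
        rintro _ ⟨a, rfl⟩
        exact h a
      calc m = finrank F E := hE.symm
        _ = finrank F (LinearMap.range (LinearMap.inl F E (Fin k → F))) :=
            (LinearMap.finrank_range_of_inj (LinearMap.inl_injective)).symm
        _ ≤ finrank F U := Submodule.finrank_mono h1
  by_cases h6 : Nat.card F = 2 ∧ m = 6
  · obtain ⟨h2, rfl⟩ := h6
    refine main 3 2 Nat.prime_three ?_ ?_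
    · rw [h2]; decide
    · intro d hd' hd
      rw [h2]
      have hd0 : 0 < d := Nat.pos_of_dvd_of_pos hd' (by omega)
      interval_cases d <;> decide
  · obtain ⟨s, hs, hs1, -, -⟩ := Cfsg.Agent.Lib.Zsigmondy.exists_primitive (a := Nat.card F) (n := m) hq2 (by omega)
      (by omega) h6
    refine main s 1 hs ?_ ?_
    · rw [pow_one]
      refine dvd_geom hq2 hs ((hs1 m).2 dvd_rfl) fun h => ?_
      have h1 := (hs1 1).1 (by rwa [pow_one])
      have := Nat.le_of_dvd one_pos h1
      omega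
    · intro d hd hlt h
      rw [pow_one] at h
      have h1 := (hs1 d).1 h
      have := Nat.le_of_dvd (Nat.pos_of_dvd_of_pos hd (by omega)) h1
      omega

/-- elements with invariant subspaces of dimension `2` and `l` only -/
theorem exists_two {p : ℕ} [hpf : Fact p.Prime] [CharP F p] {l : ℕ} (hl : 3 ≤ l) (hlo : Odd l)
    (hc : HC (ProjectiveSpecialLinearGroup (Fin (2 + l)) F) σ) :
    ∃ (r : ℕ) (g : Matrix.SpecialLinearGroup (Fin (2 + l)) F), r.Prime ∧ r ∈ σ ∧ r ∣ orderOf (pr F (2 + l) g) ∧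
      ∀ W : Submodule F (Fin (2 + l) → F), (∀ w ∈ W, g • w ∈ W) → W = ⊥ ∨ W = ⊤ ∨ finrank F W = 2 ∨
        finrank F W = l := by
  obtain ⟨hp, hr⟩ := primes_mem (p := p) (by omega) hc
  have hq2 : 2 ≤ Nat.card F := Finite.one_lt_card
  have : NeZero l := ⟨by omega⟩
  set E := FiniteField.Extension F p 2
  have hE : finrank F E = 2 := FiniteField.finrank_extension F p 2
  have hfin : Finite E := inferInstance
  have : FiniteDimensional F E := Module.Finite.of_finite
  set E' := FiniteField.Extension F p l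
  have hE' : finrank F E' = l := FiniteField.finrank_extension F p l
  have hfin' : Finite E' := inferInstance
  have : FiniteDimensional F E' := Module.Finite.of_finite
  have hV : finrank F (Fin (2 + l) → F) = finrank F (E × E') := by
    rw [finrank_fin_fun, finrank_prod, hE, hE']
  let e : (Fin (2 + l) → F) ≃ₗ[F] E × E' := LinearEquiv.ofFinrankEq _ _ hV
  obtain ⟨r, j, hrp, hrd, hrn⟩ := exists_rj (Nat.card F) hq2
  have hj : j ≠ 0 := by
    rintro rfl
    exact hrn (by simp)
  have hrq : r ∣ Nat.card F + 1 := (dvd_pow_self r hj).trans hrd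
  have hrσ : r ∈ σ := hr r hrp hrq
  obtain ⟨a, ha1, ha2⟩ := exists_norm_one (F := F) (E := E) hE (hrd.trans (add_one_dvd_geom _ even_two))
  obtain ⟨t, ht, ht1, -, -⟩ := Cfsg.Agent.Lib.Zsigmondy.exists_primitive (a := Nat.card F) (n := l) hq2 (by omega)
      (by omega) (by rintro ⟨-, rfl⟩; revert hlo; decide)
  have htq1 : ¬ t ∣ Nat.card F - 1 := fun h => by
    have h1 := (ht1 1).1 (by rwa [pow_one])
    have := Nat.le_of_dvd one_pos h1
    omega
  have htq2 : ¬ t ∣ Nat.card F + 1 := fun h => by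
    have h1 := (ht1 2).1 (by
      have : Nat.card F ^ 2 - 1 = (Nat.card F + 1) * (Nat.card F - 1) := by
        have := Nat.sq_sub_sq (Nat.card F) 1
        rwa [one_pow] at this
      rw [this]
      exact h.mul_right _)
    have := Nat.le_of_dvd two_pos h1
    omega
  have htr : t ≠ r := fun h => htq2 (h ▸ hrq)
  obtain ⟨b, hb1, hb2⟩ := exists_norm_one (F := F) (E := E') hE'
    (dvd_geom hq2 ht ((ht1 l).2 dvd_rfl) htq1)
  have hcop : Nat.Coprime (r ^ j) t := Nat.Coprime.pow_left j ((Nat.coprime_primes hrp ht).2 htr.symm)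
  have hat : orderOf (a ^ t) = r ^ j := by rw [orderOf_pow, ha1, hcop, Nat.div_one]
  have hbr : orderOf (b ^ r ^ j) = t := by rw [orderOf_pow, hb1, hcop.symm, Nat.div_one]
  have hga : Gen F ((a ^ t : Eˣ) : E) := by
    refine gen_of_order two_pos hE _ fun d hd hlt h => ?_
    rw [hat] at h
    have hd0 : 0 < d := Nat.pos_of_dvd_of_pos hd two_pos
    have : d = 1 := by omega
    rw [this, pow_one] at h
    exact hrn h
  have hgb : Gen F ((b ^ r ^ j : E'ˣ) : E') := by
    refine gen_of_order (by omega) hE' _ fun d hd hlt h => ?_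
    rw [hbr] at h
    have h1 := (ht1 d).1 h
    have := Nat.le_of_dvd (Nat.pos_of_dvd_of_pos hd (by omega)) h1
    omega
  have hane : ((a ^ t : Eˣ) : E) ≠ 1 := by
    intro h
    rw [Units.val_eq_one] at h
    rw [h, orderOf_one] at hat
    rw [← hat] at hrn
    exact hrn (one_dvd _)
  have hbne : ((b ^ r ^ j : E'ˣ) : E') ≠ 1 := by
    intro h
    rw [Units.val_eq_one] at h
    rw [h, orderOf_one] at hbr
    exact ht.one_lt.ne hbr
  let mb : Module.End F E' := LinearMap.mulLeft F (b : E')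
  have hmbdet : LinearMap.det mb = 1 := hb2
  have hmb : ∀ k, mb ^ k = LinearMap.mulLeft F (((b ^ k : E'ˣ)) : E') := by
    intro k
    rw [Units.val_pow_eq_pow_val]
    exact (LinearMap.pow_mulLeft F E' (b : E') k)
  obtain ⟨g, hg⟩ := exists_Phi e (TT (a : E) mb) (by rw [TT_det, ha2, hmbdet, one_mul])
  -- the powers
  have hgt : Phi e (g ^ t) = TT ((a ^ t : Eˣ) : E) (1 : Module.End F E') := by
    rw [map_pow, hg, TT_pow, hmb, ← hb1, pow_orderOf_eq_one, Units.val_one, ← Units.val_pow_eq_pow_val]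
    congr 1
    ext x
    simp
  have hgr : Phi e (g ^ r ^ j) = TT (1 : E) (LinearMap.mulLeft F ((b ^ r ^ j : E'ˣ) : E')) := by
    rw [map_pow, hg, TT_pow, hmb]
    congr 1
    rw [← Units.val_pow_eq_pow_val, ← ha1, pow_orderOf_eq_one, Units.val_one]
  refine ⟨r, g, hrp, hrσ, ?_, ?_⟩
  · have : Nontrivial E' := inferInstance
    have h1 : g ^ t ∉ Subgroup.center (Matrix.SpecialLinearGroup (Fin (2 + l)) F) :=
      not_mem_center e fun c => by rw [hgt]; exact TT_ne_scalar hane c
    have h2 : (g ^ t) ^ r ^ j = 1 := by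
      apply Phi_injective e
      rw [map_pow, hgt, TT_pow, one_pow, ← Units.val_pow_eq_pow_val, ← hat, pow_orderOf_eq_one,
        Units.val_one, TT_one, map_one]
    refine (dvd_orderOf_pr h1 hrp h2).trans ?_
    rw [map_pow]
    exact orderOf_pow_dvd t
  · intro W hW
    have hWk : ∀ k : ℕ, ∀ w ∈ W, (g ^ k) • w ∈ W := by
      intro k
      induction k with
      | zero => intro w hw; rwa [pow_zero, one_smul]
      | succ k ih => intro w hw; rw [pow_succ, mul_smul]; exact ih _ (hW w hw)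
    set U : Submodule F (E × E') := W.map (e : (Fin (2 + l) → F) →ₗ[F] E × E') with hU
    have hfr : finrank F U = finrank F W := LinearEquiv.finrank_map_eq e W
    have hbot : U = ⊥ → W = ⊥ := fun h => (Submodule.map_eq_bot_iff (p := W) (e := e)).1 h
    have htop : U = ⊤ → W = ⊤ := by
      intro h
      rw [eq_top_iff]
      intro w _
      have h1 : e w ∈ W.map (e : (Fin (2 + l) → F) →ₗ[F] E × E') := by rw [← hU, h]; trivial
      obtain ⟨w', hw', h2⟩ := h1
      have : w' = w := e.injective h2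
      rwa [← this]
    have h1 := invt_cases hga hane U (by
      rintro _ ⟨w, hw, rfl⟩
      rw [← hgt]
      exact ⟨(g ^ t) • w, hWk t w hw, (Phi_apply e _ w).symm⟩)
    let sw : (E × E') ≃ₗ[F] E' × E := LinearEquiv.prodComm F E E'
    have h2 := invt_cases hgb hbne (U.map (sw : (E × E') →ₗ[F] E' × E)) (by
      rintro _ ⟨_, ⟨w, hw, rfl⟩, rfl⟩
      refine ⟨e ((g ^ r ^ j) • w), ⟨(g ^ r ^ j) • w, hWk _ w hw, rfl⟩, ?_⟩
      have h3 : e ((g ^ r ^ j) • w) = TT (1 : E) (LinearMap.mulLeft F ((b ^ r ^ j : E'ˣ) : E')) (e w) := by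
        rw [← hgr, Phi_apply]
      show sw (e ((g ^ r ^ j) • w)) = _
      rw [h3]
      ext
      · rfl
      · show 1 * (e w).1 = (e w).1
        exact one_mul _)
    have h2' : (∀ x ∈ U, x.2 = 0) ∨ ∀ c : E', ((0 : E), c) ∈ U := by
      rcases h2 with h2 | h2
      · left
        intro x hx
        exact h2 (sw x) ⟨x, hx, rfl⟩
      · right
        intro c
        obtain ⟨x, hx, hx2⟩ := h2 c
        have : x = (0, c) := by
          have h3 : x.2 = c := congrArg Prod.fst hx2
          have h4 : x.1 = 0 := congrArg Prod.snd hx2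
          exact Prod.ext h4 h3
        rwa [← this]
    rcases h1 with h1 | h1 <;> rcases h2' with h2' | h2'
    · left
      apply hbot
      rw [eq_bot_iff]
      intro x hx
      rw [Submodule.mem_bot]
      exact Prod.ext (h1 x hx) (h2' x hx)
    · right; right; right
      rw [← hfr]
      have h3 : U = LinearMap.range (LinearMap.inr F E E') := by
        apply le_antisymm
        · intro u hu
          exact ⟨u.2, Prod.ext (h1 u hu).symm rfl⟩
        · rintro _ ⟨c, rfl⟩
          exact h2' c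
      rw [h3, LinearMap.finrank_range_of_inj LinearMap.inr_injective, hE']
    · right; right; left
      rw [← hfr]
      have h3 : U = LinearMap.range (LinearMap.inl F E E') := by
        apply le_antisymm
        · intro u hu
          exact ⟨u.1, Prod.ext rfl (h2' u hu).symm⟩
        · rintro _ ⟨c, rfl⟩
          exact h1 c
      rw [h3, LinearMap.finrank_range_of_inj LinearMap.inl_injective, hE]
    · right; left
      apply htop
      rw [eq_top_iff]
      intro x _
      have h3 := U.add_mem (h1 x.1) (h2' x.2)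
      rwa [Prod.mk_add_mk, add_zero, zero_add] at h3

theorem exists_torus' {p : ℕ} [hpf : Fact p.Prime] [CharP F p] {m k : ℕ} (hm : 4 ≤ m) (hme : Even m) (hn : n = m + k)
    (hc : HC (ProjectiveSpecialLinearGroup (Fin n) F) σ) :
    ∃ (s : ℕ) (y : Matrix.SpecialLinearGroup (Fin n) F), s.Prime ∧ s ∈ σ ∧ (∃ j, y ^ s ^ j = 1) ∧
      y ∉ Subgroup.center (Matrix.SpecialLinearGroup (Fin n) F) ∧
      ∀ W : Submodule F (Fin n → F), (∀ w ∈ W, y • w ∈ W) → finrank F W ≤ k ∨ m ≤ finrank F W := by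
  subst hn
  exact exists_torus (p := p) hm hme hc

theorem exists_two' {p : ℕ} [hpf : Fact p.Prime] [CharP F p] {l : ℕ} (hl : 3 ≤ l) (hlo : Odd l) (hn : n = 2 + l)
    (hc : HC (ProjectiveSpecialLinearGroup (Fin n) F) σ) :
    ∃ (r : ℕ) (g : Matrix.SpecialLinearGroup (Fin n) F), r.Prime ∧ r ∈ σ ∧ r ∣ orderOf (pr F n g) ∧
      ∀ W : Submodule F (Fin n → F), (∀ w ∈ W, g • w ∈ W) → W = ⊥ ∨ W = ⊤ ∨ finrank F W = 2 ∨
        finrank F W = l := by
  subst hn
  exact exists_two (p := p) hl hlo hc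

/-- **`PSL_n(q)`, `n ≥ 4`, has no Hall covering.** -/
theorem hc_psl (hn : 4 ≤ n) (hc : HC (ProjectiveSpecialLinearGroup (Fin n) F) σ) : False := by
  obtain ⟨p, hp⟩ := CharP.exists F
  have : Fact p.Prime := ⟨CharP.char_is_prime F p⟩
  have hpσ := (primes_mem (p := p) hn hc).1
  have hnb : ∀ W : Submodule F (Fin n → F), W ≠ ⊥ → finrank F W ≠ 0 := fun W h h0 =>
    h (Submodule.finrank_eq_zero.1 h0)
  have hnt : ∀ W : Submodule F (Fin n → F), W ≠ ⊤ → finrank F W < n := by
    intro W h
    have h1 := Submodule.finrank_lt h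
    rwa [finrank_fin_fun] at h1
  rcases Nat.even_or_odd n with he | ho
  · obtain ⟨s, y, hs, hsσ, ⟨j, hyj⟩, hyc, hy⟩ := exists_torus' (p := p) (k := 0) hn he (add_zero n).symm hc
    obtain ⟨H, hyH, hH⟩ := hc.cov (pr F n y) s hs (dvd_orderOf_pr hyc hs hyj) hsσ
    obtain ⟨W, hW1, hW2, hW3⟩ := exists_stab_hall (p := p) (by omega) hc hpσ hH
    have h1 := hnb W hW1
    have h2 := hnt W hW2
    rcases hy W (fun w hw => (hW3 y hyH w).2 hw) with h | h <;> omega
  · obtain ⟨l, hl⟩ : ∃ l, n = 2 + l := ⟨n - 2, by omega⟩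
    have hlo : Odd l := by
      rcases Nat.even_or_odd l with h | h
      · have : Even n := by rw [hl]; exact even_two.add h
        exact absurd ho (Nat.not_odd_iff_even.2 this)
      · exact h
    have hl3 : 3 ≤ l := by
      have : l ≠ 2 := by rintro rfl; revert hlo; decide
      omega
    have hme : Even (l + 1) := hlo.add_odd odd_one
    obtain ⟨s, y, hs, hsσ, ⟨j, hyj⟩, hyc, hy⟩ := exists_torus' (p := p) (m := l + 1) (k := 1) (by omega) hme
      (by omega) hc
    obtain ⟨r, g, hr, hrσ, hrd, hg⟩ := exists_two' (p := p) hl3 hlo hl hc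
    obtain ⟨H, hgH, hH⟩ := hc.cov (pr F n g) r hr hrd hrσ
    obtain ⟨W, hW1, hW2, hW3⟩ := exists_stab_hall (p := p) (by omega) hc hpσ hH
    have hR : IsPGroup s (Subgroup.zpowers (pr F n y)) := by
      have : Fact s.Prime := ⟨hs⟩
      rw [IsPGroup.iff_card, Nat.card_zpowers]
      have h1 : orderOf (pr F n y) ∣ s ^ j := by
        apply orderOf_dvd_of_pow_eq_one
        rw [← map_pow, hyj, map_one]
      obtain ⟨i, -, hi⟩ := (Nat.dvd_prime_pow hs).1 h1
      exact ⟨i, hi⟩
    obtain ⟨W', hW'1, -, -, hW'2⟩ := exists_invt hH hW3 hs hsσ hR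
    have h1 := hnb W hW1
    have h2 := hnt W hW2
    have h3 := hy W' (hW'2 y (Subgroup.mem_zpowers _))
    rcases hg W (fun w hw => (hW3 g hgH w).2 hw) with h | h | h | h
    · exact hW1 h
    · exact hW2 h
    · omega
    · omega

end Prime

section Three

variable {F : Type*} [Field F]

/-- diagonal elements of `SL_3` -/
def dg (v : Fin 3 → F) (h : v 0 * v 1 * v 2 = 1) : Matrix.SpecialLinearGroup (Fin 3) F :=
  ⟨diagonal v, by rw [det_diagonal, Fin.prod_univ_three, h]⟩

theorem dg_pow (v : Fin 3 → F) (h : v 0 * v 1 * v 2 = 1) (k : ℕ) (hk : ∀ i, v i ^ k = 1) : dg v h ^ k = 1 := by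
  apply Subtype.ext
  rw [Matrix.SpecialLinearGroup.coe_pow]
  show (diagonal v) ^ k = 1
  rw [diagonal_pow, ← diagonal_one]
  congr 1
  ext i
  exact hk i

theorem dg_not_center {v : Fin 3 → F} (h : v 0 * v 1 * v 2 = 1) (hv : v 1 ≠ v 2) :
    dg v h ∉ Subgroup.center (Matrix.SpecialLinearGroup (Fin 3) F) := by
  intro hc
  obtain ⟨c, -, hc⟩ := Matrix.SpecialLinearGroup.mem_center_iff.1 hc
  have h1 : (diagonal (fun _ => c) : Matrix (Fin 3) (Fin 3) F) = diagonal v := hc
  have h2 := diagonal_injective h1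
  exact hv ((congrFun h2 1).symm.trans (congrFun h2 2))

theorem dg_comm (v w : Fin 3 → F) (h : v 0 * v 1 * v 2 = 1) (h' : w 0 * w 1 * w 2 = 1) :
    Commute (dg v h) (dg w h') := by
  apply Subtype.ext
  show diagonal v * diagonal w = diagonal w * diagonal v
  rw [diagonal_mul_diagonal, diagonal_mul_diagonal]
  congr 1
  ext i
  exact mul_comm _ _

theorem dg_smul (v : Fin 3 → F) (h : v 0 * v 1 * v 2 = 1) (w : Fin 3 → F) : dg v h • w = fun i => v i * w i := by
  ext i
  show (diagonal v *ᵥ w) i = _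
  rw [mulVec_diagonal]

/-- a transvection -/
def tv (F : Type*) [Field F] : Matrix.SpecialLinearGroup (Fin 3) F :=
  ⟨transvection 0 1 1, det_transvection_of_ne _ _ (by decide) _⟩

theorem tv_not_center : tv F ∉ Subgroup.center (Matrix.SpecialLinearGroup (Fin 3) F) := by
  intro hc
  obtain ⟨c, -, hc⟩ := Matrix.SpecialLinearGroup.mem_center_iff.1 hc
  have h1 : (diagonal (fun _ => c) : Matrix (Fin 3) (Fin 3) F) = transvection 0 1 1 := hc
  have h2 := congrFun (congrFun h1 0) 1
  rw [diagonal_apply_ne _ (by decide), transvection, Matrix.add_apply, Matrix.one_apply_ne (by decide),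
    Matrix.single_apply_same, zero_add] at h2
  exact zero_ne_one h2

theorem tv_pow {p : ℕ} [hpf : Fact p.Prime] [CharP F p] : tv F ^ p = 1 := by
  apply Subtype.ext
  rw [Matrix.SpecialLinearGroup.coe_pow]
  show (transvection (0 : Fin 3) (1 : Fin 3) (1 : F)) ^ p = 1
  have : CharP (Matrix (Fin 3) (Fin 3) F) p := Matrix.charP p
  rw [transvection, add_pow_char_of_commute p (Commute.one_left _), one_pow]
  have h2 : (Matrix.single (0 : Fin 3) (1 : Fin 3) (1 : F)) ^ p = 0 := by
    obtain ⟨t, ht⟩ : ∃ t, p = t + 2 := ⟨p - 2, by have := hpf.out.two_le; omega⟩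
    rw [ht, pow_add, pow_two, Matrix.single_mul_single_of_ne _ _ _ _ (by decide), mul_zero]
  rw [h2, add_zero]

theorem tv_comm (v : Fin 3 → F) (h : v 0 * v 1 * v 2 = 1) (hv : v 0 = v 1) : Commute (dg v h) (tv F) := by
  apply Subtype.ext
  show diagonal v * transvection 0 1 1 = transvection 0 1 1 * diagonal v
  rw [transvection, mul_add, add_mul, mul_one, one_mul]
  congr 1
  ext i j
  rw [diagonal_mul, mul_diagonal, Matrix.single_apply]
  split_ifs with hij
  · rw [← hij.1, ← hij.2, hv]; ring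
  · rw [mul_zero, zero_mul]

/-- the cyclic permutation -/
def cy (F : Type*) [Field F] : Matrix.SpecialLinearGroup (Fin 3) F :=
  ⟨!![0, 0, 1; 1, 0, 0; 0, 1, 0], by simp [det_fin_three]⟩

theorem cy_smul (w : Fin 3 → F) : cy F • w = ![w 2, w 0, w 1] := by
  ext i
  show (!![0, 0, 1; 1, 0, 0; 0, 1, 0] *ᵥ w) i = _
  fin_cases i <;> simp [mulVec, dotProduct, Fin.sum_univ_three]

theorem cy_pow : cy F ^ 3 = 1 := by
  apply Subtype.ext
  rw [Matrix.SpecialLinearGroup.coe_pow]
  show (!![0, 0, 1; 1, 0, 0; 0, 1, 0] : Matrix (Fin 3) (Fin 3) F) ^ 3 = 1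
  ext i j
  fin_cases i <;> fin_cases j <;> simp [pow_succ, Matrix.mul_apply, Fin.sum_univ_three]

variable [Finite F] {σ : Set ℕ}

theorem hc_psl_three (h3 : 3 ∣ Nat.card F - 1) (h4 : Nat.card F ≠ 4)
    (hc : HC (ProjectiveSpecialLinearGroup (Fin 3) F) σ) : False := by
  obtain ⟨p, hp⟩ := CharP.exists F
  have hpf : Fact p.Prime := ⟨CharP.char_is_prime F p⟩
  have hq2 : 2 ≤ Nat.card F := Finite.one_lt_card
  have hcu : Nat.card Fˣ = Nat.card F - 1 := Nat.card_units F
  -- elements of given order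
  have hel : ∀ d, d ∣ Nat.card F - 1 → ∃ c : Fˣ, orderOf c = d := by
    intro d hd
    rw [← hcu] at hd
    obtain ⟨g, hg⟩ := IsCyclic.exists_generator (α := Fˣ)
    have hog : orderOf g = Nat.card Fˣ := orderOf_eq_card_of_forall_mem_zpowers hg
    exact ⟨g ^ (Nat.card Fˣ / d), by
      rw [orderOf_pow, hog, Nat.gcd_eq_right (Nat.div_dvd_of_dvd hd), Nat.div_div_self hd Nat.card_pos.ne']⟩
  -- the elements `diag (c, c, c⁻²)`
  let D : Fˣ → Matrix.SpecialLinearGroup (Fin 3) F := fun c =>
    dg ![(c : F), c, ((c ^ 2)⁻¹ : Fˣ)] (by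
      show (c : F) * c * ((c ^ 2)⁻¹ : Fˣ) = 1
      rw [← Units.val_mul, ← Units.val_mul, ← pow_two, mul_inv_cancel, Units.val_one])
  have hDc : ∀ c : Fˣ, c ^ 3 ≠ 1 → D c ∉ Subgroup.center (Matrix.SpecialLinearGroup (Fin 3) F) := by
    intro c hc3
    apply dg_not_center
    show (c : F) ≠ ((c ^ 2)⁻¹ : Fˣ)
    intro h
    apply hc3
    rw [Units.val_inj] at h
    calc c ^ 3 = c * c ^ 2 := by rw [pow_succ' c 2]
      _ = (c ^ 2)⁻¹ * c ^ 2 := by rw [← h]
      _ = 1 := inv_mul_cancel _
  have hDp : ∀ (c : Fˣ) (k : ℕ), c ^ k = 1 → D c ^ k = 1 := by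
    intro c k hk
    apply dg_pow
    intro i
    fin_cases i
    · show (c : F) ^ k = 1
      rw [← Units.val_pow_eq_pow_val, hk, Units.val_one]
    · show (c : F) ^ k = 1
      rw [← Units.val_pow_eq_pow_val, hk, Units.val_one]
    · show (((c ^ 2)⁻¹ : Fˣ) : F) ^ k = 1
      rw [← Units.val_pow_eq_pow_val, inv_pow, ← pow_mul, mul_comm, pow_mul, hk, one_pow, inv_one, Units.val_one]
  have hDt : ∀ c : Fˣ, Commute (D c) (tv F) := fun c => tv_comm _ _ rfl
  have htp : tv F ^ p ^ 1 = 1 := by rw [pow_one]; exact tv_pow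
  -- `p ∈ σ`
  have hpσ : p ∈ σ := by
    rcases hpf.out.eq_two_or_odd' with h | h
    · rw [h]; exact hc.two
    · have hne : (-1 : Fˣ) ≠ 1 := by
        intro h1
        have h2 : (-1 : F) = 1 := by
          have := congrArg Units.val h1
          simpa using this
        have h3 : (2 : F) = 0 := by
          have : (1 : F) + 1 = 0 := by nth_rw 1 [← h2]; ring
          rw [← this]; ring
        have h4 : ((2 : ℕ) : F) = 0 := by exact_mod_cast h3
        rw [CharP.cast_eq_zero_iff F p] at h4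
        have := (Nat.prime_dvd_prime_iff_eq hpf.out Nat.prime_two).1 h4
        rw [this] at h
        exact absurd h (by decide)
      exact adj_of hc (hDc (-1) (by rw [Odd.neg_one_pow (by decide)]; exact hne)) tv_not_center (hDt _) Nat.prime_two hpf.out
        (i := 1) (hDp _ _ (by rw [pow_one, neg_one_sq])) htp hc.two
  -- the element `diag (1, ω, ω²)`
  obtain ⟨w, hw⟩ := hel 3 h3
  have hw3 : (w : F) ^ 3 = 1 := by rw [← Units.val_pow_eq_pow_val, ← hw, pow_orderOf_eq_one, Units.val_one]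
  have hw1 : (w : F) ≠ 1 := by
    intro h
    rw [Units.val_eq_one] at h
    rw [h, orderOf_one] at hw
    omega
  have hw0 : (w : F) ≠ 0 := w.ne_zero
  have hww : (w : F) ≠ (w : F) ^ 2 := by
    intro h
    apply hw1
    have : (w : F) * 1 = w * w := by rw [mul_one, ← pow_two]; exact h
    exact (mul_left_cancel₀ hw0 this).symm
  let R1 : Matrix.SpecialLinearGroup (Fin 3) F := dg ![1, (w : F), (w : F) ^ 2] (by
    show 1 * (w : F) * (w : F) ^ 2 = 1
    rw [one_mul, ← pow_succ', hw3])
  have hR1c : R1 ∉ Subgroup.center (Matrix.SpecialLinearGroup (Fin 3) F) := dg_not_center _ hww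
  have hR13 : R1 ^ 3 = 1 := by
    apply dg_pow
    intro i
    fin_cases i
    · exact one_pow 3
    · exact hw3
    · show ((w : F) ^ 2) ^ 3 = 1
      rw [← pow_mul, mul_comm, pow_mul, hw3, one_pow]
  have h3σ : 3 ∈ σ := by
    by_cases h9 : 9 ∣ Nat.card F - 1
    · obtain ⟨c, hc9⟩ := hel 9 h9
      refine adj_of hc tv_not_center (hDc c ?_) (hDt c).symm hpf.out Nat.prime_three htp (j := 2)
        (hDp c _ (by rw [← pow_orderOf_eq_one c, hc9]; norm_num)) hpσ
      intro h
      have := orderOf_dvd_of_pow_eq_one h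
      rw [hc9] at this
      revert this
      decide
    · obtain ⟨m, hm⟩ := h3
      have hm1 : m ≠ 1 := by rintro rfl; omega
      obtain ⟨r, hr, hrm⟩ := Nat.exists_prime_and_dvd hm1
      have hr3 : r ≠ 3 := by
        rintro rfl
        apply h9
        rw [hm]
        exact mul_dvd_mul_left 3 hrm
      obtain ⟨c, hcr⟩ := hel r (by rw [hm]; exact hrm.mul_left 3)
      have hc3 : c ^ 3 ≠ 1 := by
        intro h
        have := orderOf_dvd_of_pow_eq_one h
        rw [hcr] at this
        exact hr3 ((Nat.prime_dvd_prime_iff_eq hr Nat.prime_three).1 this)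
      have hcr1 : D c ^ r ^ 1 = 1 := hDp c _ (by rw [pow_one, ← hcr, pow_orderOf_eq_one])
      have hrσ : r ∈ σ := adj_of hc tv_not_center (hDc c hc3) (hDt c).symm hpf.out hr htp hcr1 hpσ
      exact adj_of hc (hDc c hc3) hR1c (dg_comm _ _ _ _) hr Nat.prime_three hcr1 (j := 1)
        (by rw [pow_one]; exact hR13) hrσ
  -- the Hall subgroup
  obtain ⟨H, -, hH⟩ := hc.cov (pr F 3 R1) 3 Nat.prime_three
    (dvd_orderOf_pr hR1c Nat.prime_three (k := 1) (by rw [pow_one]; exact hR13)) h3σ
  obtain ⟨W, hW1, hW2, hW3⟩ := exists_stab_hall (p := p) (by omega) hc hpσ hH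
  have hcomm : Commute (pr F 3 R1) (pr F 3 (cy F)) := by
    let z : Matrix.SpecialLinearGroup (Fin 3) F := dg ![(w : F), w, w] (by
      show (w : F) * w * w = 1
      rw [← hw3]; ring)
    have hz : z ∈ Subgroup.center (Matrix.SpecialLinearGroup (Fin 3) F) := by
      rw [Matrix.SpecialLinearGroup.mem_center_iff]
      refine ⟨w, by rw [Fintype.card_fin]; exact hw3, ?_⟩
      show (diagonal fun _ => (w : F)) = diagonal ![(w : F), w, w]
      congr 1
      ext i
      fin_cases i <;> rfl
    have h1 : R1 * cy F = z * (cy F * R1) := by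
      apply Subtype.ext
      show diagonal ![1, (w : F), (w : F) ^ 2] * !![0, 0, 1; 1, 0, 0; 0, 1, 0] =
        diagonal ![(w : F), w, w] * (!![0, 0, 1; 1, 0, 0; 0, 1, 0] * diagonal ![1, (w : F), (w : F) ^ 2])
      ext i j
      rw [diagonal_mul, diagonal_mul, mul_diagonal]
      fin_cases i <;> fin_cases j <;> simp
      · rw [← hw3]; ring
      · ring
    have h2 : pr F 3 z = 1 := (QuotientGroup.eq_one_iff z).2 hz
    show pr F 3 R1 * pr F 3 (cy F) = pr F 3 (cy F) * pr F 3 R1
    rw [← map_mul, h1, map_mul, h2, one_mul, map_mul]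
  have hzp : ∀ x : Matrix.SpecialLinearGroup (Fin 3) F, x ^ 3 = 1 → IsPGroup 3 (Subgroup.zpowers (pr F 3 x)) := by
    intro x hx
    have : Fact (Nat.Prime 3) := ⟨Nat.prime_three⟩
    rw [IsPGroup.iff_card, Nat.card_zpowers]
    have h1 : orderOf (pr F 3 x) ∣ 3 ^ 1 := by
      apply orderOf_dvd_of_pow_eq_one
      rw [← map_pow, pow_one, hx, map_one]
    obtain ⟨i, -, hi⟩ := (Nat.dvd_prime_pow Nat.prime_three).1 h1
    exact ⟨i, hi⟩
  have hR : IsPGroup 3 (Subgroup.zpowers (pr F 3 R1) ⊔ Subgroup.zpowers (pr F 3 (cy F)) : Subgroup _) := by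
    refine IsPGroup.to_sup_of_normal_right' (hzp _ hR13) (hzp _ cy_pow) ?_
    rw [Subgroup.zpowers_le, Subgroup.mem_normalizer_iff]
    intro h
    constructor
    · intro hh
      obtain ⟨k, rfl⟩ := Subgroup.mem_zpowers_iff.1 hh
      rw [(hcomm.zpow_right k).eq, mul_inv_cancel_right]
      exact Subgroup.zpow_mem_zpowers _ k
    · intro hh
      obtain ⟨k, hk⟩ := Subgroup.mem_zpowers_iff.1 hh
      have h1 : h = (pr F 3 (cy F)) ^ k := by
        have h2 : h = (pr F 3 R1)⁻¹ * (pr F 3 (cy F)) ^ k * pr F 3 R1 := by rw [hk]; group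
        rw [h2, mul_assoc, ← (hcomm.zpow_right k).eq, inv_mul_cancel_left]
      rw [h1]
      exact Subgroup.zpow_mem_zpowers _ k
  obtain ⟨W', -, hW'1, hW'2, hW'3⟩ := exists_invt hH hW3 Nat.prime_three h3σ hR
  have ha := hW'3 R1 (Subgroup.mem_sup_left (Subgroup.mem_zpowers _))
  have hb := hW'3 (cy F) (Subgroup.mem_sup_right (Subgroup.mem_zpowers _))
  have hsum : 1 + (w : F) + (w : F) ^ 2 = 0 := by
    have h1 : ((w : F) - 1) * (1 + (w : F) + (w : F) ^ 2) = 0 := by
      have : ((w : F) - 1) * (1 + (w : F) + (w : F) ^ 2) = (w : F) ^ 3 - 1 := by ring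
      rw [this, hw3, sub_self]
    exact (mul_eq_zero.1 h1).resolve_left (sub_ne_zero.2 hw1)
  have h3F : (3 : F) ≠ 0 := by
    intro h
    have h5 : ((3 : ℕ) : F) = 0 := by exact_mod_cast h
    rw [CharP.cast_eq_zero_iff F p] at h5
    have h6 := (Nat.prime_dvd_prime_iff_eq hpf.out Nat.prime_three).1 h5
    have : Fintype F := Fintype.ofFinite F
    obtain ⟨f, -, hf⟩ := FiniteField.card F p
    have h7 : 3 ∣ Nat.card F := by
      rw [Nat.card_eq_fintype_card, hf, h6]
      exact dvd_pow_self 3 f.ne_zero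
    omega
  have hw4 : (w : F) ^ 4 = w := by rw [pow_succ, hw3, one_mul]
  obtain ⟨v, hv, hv0⟩ := Submodule.exists_mem_ne_zero_of_ne_bot (fun h => hW1 (hW'1 h))
  have e1 : R1 • v = ![v 0, (w : F) * v 1, (w : F) ^ 2 * v 2] := by
    rw [dg_smul]
    ext i
    fin_cases i
    · exact one_mul _
    · rfl
    · rfl
  have e2 : R1 • (R1 • v) = ![v 0, (w : F) ^ 2 * v 1, (w : F) * v 2] := by
    rw [e1, dg_smul]
    ext i
    fin_cases i
    · exact one_mul _
    · show (w : F) * ((w : F) * v 1) = (w : F) ^ 2 * v 1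
      ring
    · show (w : F) ^ 2 * ((w : F) ^ 2 * v 2) = (w : F) * v 2
      rw [← mul_assoc, ← pow_add, hw4]
  have f1 := ha v hv
  have f2 := ha _ f1
  have g0 : ![3 * v 0, 0, 0] ∈ W' := by
    have h := W'.add_mem (W'.add_mem hv f1) f2
    rw [e2, e1] at h
    convert h using 1
    ext i
    fin_cases i
    · show 3 * v 0 = v 0 + v 0 + v 0
      ring
    · show 0 = v 1 + (w : F) * v 1 + (w : F) ^ 2 * v 1
      linear_combination (-v 1) * hsum
    · show 0 = v 2 + (w : F) ^ 2 * v 2 + (w : F) * v 2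
      linear_combination (-v 2) * hsum
  have g1 : ![0, 3 * v 1, 0] ∈ W' := by
    have h := W'.add_mem (W'.add_mem hv (W'.smul_mem ((w : F) ^ 2) f1)) (W'.smul_mem (w : F) f2)
    rw [e2, e1] at h
    convert h using 1
    ext i
    fin_cases i
    · show 0 = v 0 + (w : F) ^ 2 * v 0 + (w : F) * v 0
      linear_combination (-v 0) * hsum
    · show 3 * v 1 = v 1 + (w : F) ^ 2 * ((w : F) * v 1) + (w : F) * ((w : F) ^ 2 * v 1)
      linear_combination (-2 * v 1) * hw3
    · show 0 = v 2 + (w : F) ^ 2 * ((w : F) ^ 2 * v 2) + (w : F) * ((w : F) * v 2)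
      linear_combination (-v 2) * hsum - v 2 * hw4
  have g2 : ![0, 0, 3 * v 2] ∈ W' := by
    have h := W'.add_mem (W'.add_mem hv (W'.smul_mem (w : F) f1)) (W'.smul_mem ((w : F) ^ 2) f2)
    rw [e2, e1] at h
    convert h using 1
    ext i
    fin_cases i
    · show 0 = v 0 + (w : F) * v 0 + (w : F) ^ 2 * v 0
      linear_combination (-v 0) * hsum
    · show 0 = v 1 + (w : F) * ((w : F) * v 1) + (w : F) ^ 2 * ((w : F) ^ 2 * v 1)
      linear_combination (-v 1) * hsum - v 1 * hw4
    · show 3 * v 2 = v 2 + (w : F) * ((w : F) ^ 2 * v 2) + (w : F) ^ 2 * ((w : F) * v 2)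
      linear_combination (-2 * v 2) * hw3
  have hcy : ∀ a b c : F, ![a, b, c] ∈ W' → ![c, a, b] ∈ W' := by
    intro a b c h
    have := hb _ h
    rw [cy_smul] at this
    exact this
  have hall : ∀ a : F, ![a, 0, 0] ∈ W' := by
    have hx : ∃ b : F, b ≠ 0 ∧ ![b, 0, 0] ∈ W' := by
      by_cases h0 : v 0 = 0
      · by_cases h1 : v 1 = 0
        · have h2 : v 2 ≠ 0 := by
            intro h2
            apply hv0
            ext i
            fin_cases i
            · exact h0
            · exact h1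
            · exact h2
          exact ⟨3 * v 2, mul_ne_zero h3F h2, hcy _ _ _ g2⟩
        · exact ⟨3 * v 1, mul_ne_zero h3F h1, hcy _ _ _ (hcy _ _ _ g1)⟩
      · exact ⟨3 * v 0, mul_ne_zero h3F h0, g0⟩
    obtain ⟨b, hb0, hb⟩ := hx
    intro a
    have h := W'.smul_mem (a / b) hb
    convert h using 1
    ext i
    fin_cases i
    · show a = a / b * b
      rw [div_mul_cancel₀ _ hb0]
    · show 0 = a / b * 0
      rw [mul_zero]
    · show 0 = a / b * 0
      rw [mul_zero]
  apply hW2
  apply hW'2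
  rw [eq_top_iff]
  intro x _
  have h := W'.add_mem (W'.add_mem (hall (x 0)) (hcy _ _ _ (hall (x 1)))) (hcy _ _ _ (hcy _ _ _ (hall (x 2))))
  convert h using 1
  ext i
  fin_cases i <;> simp

end Three

end Cfsg.Agent.H783.HallPSL
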