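import Mathlib
import Cfsg.Prelude.Def_Classical
import Cfsg.Agent.UThreeGen.Recog
import Cfsg.Agent.LieClassical.HermBasic

/-!
# `PSU₃(q)` as the quotient of `SUG σ`: unitriangular group, torus (for S4792)
-/

set_option autoImplicit false

namespace Cfsg.Agent.H783.Psu3

open Cfsg Matrix
open Cfsg.Agent.UThreeGen.MatGroup Cfsg.Agent.UThreeGen.Recog
open Cfsg.Agent.LieRecognition.PSUThreeSylow (conjT)

variable {K : Type*} [Field K] {σ : K →+* K} [hσ : Fact (∀ x, σ (σ x) = x)]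

/-- The surjection `SUG σ → PSU₃(m)`, in any characteristic. -/
theorem exists_psu_hom [Fintype K] {m : ℕ} (hs : ∀ x, σ x = x ^ m) (hF : Fintype.card K = m ^ 2) :
    ∃ q : SUG σ →* Cfsg.PSU 3 K m, Function.Surjective q ∧ q.ker = Subgroup.center (SUG σ) := by
  have hm : 1 < m := LieClassical.HermBasic.two_le hF
  have hF' : Nat.card K = m ^ 2 := by rw [Nat.card_eq_fintype_card, hF]
  obtain ⟨T, T', hTT', hT⟩ : ∃ T T' : Matrix (Fin 3) (Fin 3) K, T * T' = 1 ∧ Tᵀ * T.map σ = -Gm K := by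
    by_cases h2 : (2 : K) = 0
    · have : CharP K 2 := CharTwo.of_one_ne_zero_of_two_eq_zero one_ne_zero h2
      obtain ⟨c, hc⟩ : ∃ c : K, σ c ≠ c := by
        obtain ⟨c, hc⟩ := LieClassical.HermBasic.exists_not_fixed hF
        exact ⟨c, by rw [hs]; exact hc⟩
      obtain ⟨T, T', h3, h4⟩ := Cfsg.Agent.LieRecognition.PSUThreeSylow.exists_T hc
      refine ⟨T, T', h3, ?_⟩
      rw [h4]
      ext i j
      fin_cases i <;> fin_cases j <;> simp [Gm, Cfsg.Agent.LieRecognition.PSUThreeSylow.Jm, CharTwo.neg_eq]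
    · obtain ⟨v, hv⟩ := exists_norm (σ := σ) hm hs hF' (c := -1) (by rw [map_neg, map_one])
      exact exists_T (σ := σ) h2 hv
  let e : SUG σ ≃* Cfsg.SU 3 K m :=
    ((conjT hTT').subgroupMap (SUG σ)).trans (MulEquiv.subgroupCongr (SU_eq_map hs hTT' hT))
  let π : SUG σ →* Cfsg.PSU 3 K m :=
    (QuotientGroup.mk' (Subgroup.center (Cfsg.SU 3 K m))).comp e.toMonoidHom
  have hπ : Function.Surjective π := (QuotientGroup.mk'_surjective _).comp e.surjective
  refine ⟨π, hπ, ?_⟩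
  ext g
  have h1 : π g = 1 ↔ e g ∈ Subgroup.center (Cfsg.SU 3 K m) := by
    rw [← QuotientGroup.eq_one_iff]
    exact Iff.rfl
  rw [MonoidHom.mem_ker, h1, Subgroup.mem_center_iff, Subgroup.mem_center_iff]
  constructor
  · intro h k
    apply e.injective
    rw [map_mul, map_mul]
    exact h (e k)
  · intro h k
    obtain ⟨k, rfl⟩ := e.surjective k
    rw [← map_mul, ← map_mul, h k]

/-- The torus element. -/
def tor (σ : K →+* K) [hσ : Fact (∀ x, σ (σ x) = x)] : Kˣ →* SUG σ where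
  toFun a := ⟨⟨!![(a : K), 0, 0; 0, σ (a : K) * (a : K)⁻¹, 0; 0, 0, (σ (a : K))⁻¹], by
      have h1 : (a : K) ≠ 0 := a.ne_zero
      have h2 : σ (a : K) ≠ 0 := (map_ne_zero σ).2 h1
      simp [Matrix.det_fin_three]
      field_simp⟩, by
      have h1 : (a : K) ≠ 0 := a.ne_zero
      have h2 : σ (a : K) ≠ 0 := (map_ne_zero σ).2 h1
      change (!![(a : K), 0, 0; 0, σ (a : K) * (a : K)⁻¹, 0; 0, 0, (σ (a : K))⁻¹] :
        Matrix (Fin 3) (Fin 3) K)ᵀ * Gm K * (!![(a : K), 0, 0; 0, σ (a : K) * (a : K)⁻¹, 0; 0, 0,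
        (σ (a : K))⁻¹] : Matrix (Fin 3) (Fin 3) K).map σ = Gm K
      ext i j
      fin_cases i <;> fin_cases j <;>
        simp [Gm, Matrix.mul_apply, Fin.sum_univ_three, Cfsg.Agent.UThreeGen.MatGroup.sig, h1, h2]
      · field_simp⟩
  map_one' := by
    apply Subtype.ext
    apply Subtype.ext
    ext i j
    fin_cases i <;> fin_cases j <;> simp
  map_mul' a b := by
    have h1 : (a : K) ≠ 0 := a.ne_zero
    have h2 : σ (a : K) ≠ 0 := (map_ne_zero σ).2 h1
    apply Subtype.ext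
    apply Subtype.ext
    rw [coe_mul_SUG]
    ext i j
    fin_cases i <;> fin_cases j <;> simp [Matrix.mul_apply, Fin.sum_univ_three]
    · ring
    · ring

lemma tor_val (a : Kˣ) : (tor σ a).1.1 =
    !![(a : K), 0, 0; 0, σ (a : K) * (a : K)⁻¹, 0; 0, 0, (σ (a : K))⁻¹] := rfl

lemma tor_val' (a : Kˣ) : (tor σ a).1.1 = Matrix.diagonal ![(a : K), σ (a : K) * (a : K)⁻¹, (σ (a : K))⁻¹] := by
  rw [tor_val]
  ext i j
  fin_cases i <;> fin_cases j <;> simp

omit hσ in
theorem ext_SUG {g h : SUG σ} (H : ∀ i j, g.1.1 i j = h.1.1 i j) : g = h :=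
  Subtype.ext (Subtype.ext (Matrix.ext H))

theorem emb_val' (x : HG σ) : (emb σ x).1.1 = !![1, x.a, x.b; 0, 1, σ x.a; 0, 0, 1] := emb_val x

/-- the action of the torus on the unitriangular group -/
def act (e : Kˣ) (x : HG σ) : HG σ where
  a := (e : K) ^ 2 * (σ (e : K))⁻¹ * x.a
  b := (e : K) * σ (e : K) * x.b
  h := by
    have h1 : (e : K) ≠ 0 := e.ne_zero
    have h2 : σ (e : K) ≠ 0 := (map_ne_zero σ).2 h1
    have h3 := x.h
    have h4 : σ (σ (e : K)) = e := hσ.out _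
    have h5 : σ x.b = x.a * σ x.a - x.b := by rw [← h3]; ring
    rw [map_mul, map_mul, map_mul, map_mul, map_inv₀, map_pow, h4, h5]
    field_simp
    ring

theorem tor_emb (e : Kˣ) (x : HG σ) : tor σ e * emb σ x = emb σ (act e x) * tor σ e := by
  have h1 : (e : K) ≠ 0 := e.ne_zero
  have h2 : σ (e : K) ≠ 0 := (map_ne_zero σ).2 h1
  refine ext_SUG fun i j => ?_
  rw [coe_mul_SUG, coe_mul_SUG, tor_val, emb_val', emb_val']
  fin_cases i <;> fin_cases j <;>
    simp [Matrix.mul_apply, Fin.sum_univ_three, act, Cfsg.Agent.UThreeGen.MatGroup.sig] <;> field_simp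

theorem tor_conj (e : Kˣ) (x : HG σ) : tor σ e * emb σ x * (tor σ e)⁻¹ = emb σ (act e x) := by
  rw [tor_emb, mul_inv_cancel_right]

/-- `x y = [0, c] y x` -/
theorem comm_HG (x y z : HG σ) (hz : z.a = 0) (hb : z.b = x.a * σ y.a - y.a * σ x.a) : x * y = z * (y * x) := by
  ext
  · rw [mul_a, mul_a, mul_a, hz]; ring
  · rw [mul_b, mul_b, mul_b, hz, hb]; ring

/-- An element commuting up to a scalar with the torus element. -/
theorem diag_of_comm {g : SUG σ} {e : Kˣ} {ζ : K} (h01 : ∀ ω : K, ω = 1 ∨ ω = ζ → ω * (e : K) ≠ σ (e : K) * (e : K)⁻¹)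
    (h02 : ∀ ω : K, ω = 1 ∨ ω = ζ → ω * (e : K) ≠ (σ (e : K))⁻¹) (h12 : σ (e : K) * (e : K)⁻¹ ≠ (σ (e : K))⁻¹)
    (hg : g.1.1 * (tor σ e).1.1 = ζ • ((tor σ e).1.1 * g.1.1)) : ∃ a : Kˣ, g = tor σ a := by
  have h1 : (e : K) ≠ 0 := e.ne_zero
  have h2 : σ (e : K) ≠ 0 := (map_ne_zero σ).2 h1
  rw [tor_val'] at hg
  have hij : ∀ i j : Fin 3, g.1.1 i j * (![(e : K), σ (e : K) * (e : K)⁻¹, (σ (e : K))⁻¹] j) =
      ζ * ((![(e : K), σ (e : K) * (e : K)⁻¹, (σ (e : K))⁻¹] i) * g.1.1 i j) := by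
    intro i j
    have h3 := congrFun (congrFun hg i) j
    rw [Matrix.smul_apply, Matrix.mul_diagonal, Matrix.diagonal_mul, smul_eq_mul] at h3
    exact h3
  have hdet : g.1.1.det = 1 := g.1.2
  rw [Matrix.det_fin_three] at hdet
  -- the first row
  have g01 : g.1.1 0 1 = 0 := by
    by_contra hne
    have h3 := hij 0 1
    simp only [Matrix.cons_val_zero, Matrix.cons_val_one, Fin.isValue] at h3
    apply h01 ζ (Or.inr rfl)
    apply mul_left_cancel₀ hne
    rw [h3]; ring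
  have g02 : g.1.1 0 2 = 0 := by
    by_contra hne
    have h3 := hij 0 2
    simp only [Matrix.cons_val_zero, Matrix.cons_val, Fin.isValue] at h3
    apply h02 ζ (Or.inr rfl)
    apply mul_left_cancel₀ hne
    rw [h3]; ring
  have g00 : g.1.1 0 0 ≠ 0 := by
    intro h0
    rw [h0, g01, g02] at hdet
    simp at hdet
  have hζ : ζ = 1 := by
    have h3 := hij 0 0
    simp only [Matrix.cons_val_zero, Fin.isValue] at h3
    have h4 : (e : K) * g.1.1 0 0 ≠ 0 := mul_ne_zero h1 g00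
    have h5 : (1 - ζ) * ((e : K) * g.1.1 0 0) = 0 := by linear_combination h3
    have h6 := (mul_eq_zero.1 h5).resolve_right h4
    linear_combination -h6
  subst hζ
  have g10 : g.1.1 1 0 = 0 := by
    by_contra hne
    have h3 := hij 1 0
    simp only [Matrix.cons_val_zero, Matrix.cons_val_one, Fin.isValue] at h3
    apply h01 1 (Or.inl rfl)
    apply mul_left_cancel₀ hne
    rw [one_mul, h3]; ring
  have g20 : g.1.1 2 0 = 0 := by
    by_contra hne
    have h3 := hij 2 0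
    simp only [Matrix.cons_val_zero, Matrix.cons_val, Fin.isValue] at h3
    apply h02 1 (Or.inl rfl)
    apply mul_left_cancel₀ hne
    rw [one_mul, h3]; ring
  have g12 : g.1.1 1 2 = 0 := by
    by_contra hne
    have h3 := hij 1 2
    simp only [Matrix.cons_val_one, Matrix.cons_val, Fin.isValue] at h3
    apply h12
    apply mul_left_cancel₀ hne
    rw [h3]; ring
  have g21 : g.1.1 2 1 = 0 := by
    by_contra hne
    have h3 := hij 2 1
    simp only [Matrix.cons_val_one, Matrix.cons_val, Fin.isValue] at h3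
    apply h12
    apply mul_left_cancel₀ hne
    rw [h3]; ring
  rw [g01, g02, g10, g20, g12, g21] at hdet
  -- the form
  have e02 := entry_of_mem_SUG g.2 0 2
  rw [g20] at e02
  have hG : Gm K 0 2 = 1 := by simp [Gm]
  rw [hG, g10, zero_mul, sub_zero, zero_mul, add_zero] at e02
  refine ⟨Units.mk0 _ g00, ?_⟩
  have e02' : σ (g.1.1 0 0) * g.1.1 2 2 = 1 := by
    have h3 := congrArg σ e02
    rw [map_mul, hσ.out, map_one] at h3
    exact h3
  have hs0 : σ (g.1.1 0 0) ≠ 0 := (map_ne_zero σ).2 g00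
  have g22 : g.1.1 2 2 = (σ (g.1.1 0 0))⁻¹ := by
    exact eq_inv_of_mul_eq_one_right e02'
  have g11 : g.1.1 1 1 = σ (g.1.1 0 0) * (g.1.1 0 0)⁻¹ := by
    rw [g22] at hdet
    have h3 : g.1.1 0 0 * g.1.1 1 1 * (σ (g.1.1 0 0))⁻¹ = 1 := by linear_combination hdet
    field_simp at h3 ⊢
    linear_combination h3
  refine ext_SUG fun i j => ?_
  rw [tor_val]
  fin_cases i <;> fin_cases j <;> simp [g01, g02, g10, g20, g12, g21, g22, g11]

end Cfsg.Agent.H783.Psu3
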