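import Cfsg.Agent.H783.Psu3Base
import Cfsg.Agent.H430.Conj.Heis
import Cfsg.Agent.S0282

/-!
# The row `PSU₃(q)`, `3 ∣ q + 1`, of S4792
-/

set_option autoImplicit false

namespace Cfsg.Agent.H783.Psu3

open Cfsg Matrix
open Cfsg.Agent.UThreeGen.MatGroup
open Cfsg.Agent.H430.Conj
open Cfsg.Agent.LieClassical.HermBasic (exists_trace_eq card_units_eq two_le pow_q_pow_q)
open Cfsg.Agent.Characters.Core (isIrr_isCharacter)

section Field

variable {K : Type*} [Field K] [Fintype K] {σ : K →+* K} [hσ : Fact (∀ x, σ (σ x) = x)] {q : ℕ}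

theorem exists_HG (hs : ∀ x, σ x = x ^ q) (hF : Fintype.card K = q ^ 2) (a : K) : ∃ x : HG σ, x.a = a := by
  obtain ⟨b, hb⟩ := exists_trace_eq hF (c := a * σ a) (by rw [← hs, map_mul, hσ.out, mul_comm])
  exact ⟨⟨a, b, by rw [hs b]; exact hb⟩, rfl⟩

omit hσ in
theorem exists_t (hs : ∀ x, σ x = x ^ q) (hF : Fintype.card K = q ^ 2) {x : K} (hx : σ x = -x) : ∃ t : K, t - σ t = x := by
  obtain ⟨s, hs1⟩ := exists_trace_eq hF (c := 1) (one_pow _)
  refine ⟨s * x, ?_⟩
  rw [← hs] at hs1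
  rw [map_mul, hx]
  linear_combination x * hs1

theorem center_scalar (hs : ∀ x, σ x = x ^ q) (hF : Fintype.card K = q ^ 2) {z : SUG σ} (hz : z ∈ Subgroup.center (SUG σ)) :
    ∃ ζ : K, ζ ^ 3 = 1 ∧ z.1.1 = ζ • (1 : Matrix (Fin 3) (Fin 3) K) := by
  obtain ⟨x, hx⟩ := exists_HG hs hF (1 : K)
  have hx0 : ∃ x : HG σ, x.a ≠ 0 := ⟨x, by rw [hx]; exact one_ne_zero⟩
  have hb := center_le_borel hx0 hz
  have hw : (wel σ)⁻¹ * z * wel σ ∈ borel σ := by
    rw [mul_assoc, ← Subgroup.mem_center_iff.1 hz (wel σ), inv_mul_cancel_left]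
    exact hb
  obtain ⟨h10, h20, h01, h21, h02, h12⟩ := entries_of_mem hb hw
  have hc := congrArg (fun g : SUG σ => g.1.1) (Subgroup.mem_center_iff.1 hz (emb σ x))
  simp only [coe_mul_SUG, emb_val'] at hc
  have e01 := congrFun (congrFun hc 0) 1
  have e12 := congrFun (congrFun hc 1) 2
  simp [Matrix.mul_apply, Fin.sum_univ_three, hx, h10, h01, h21, h02, h12] at e01 e12
  have hdet : z.1.1.det = 1 := z.1.2
  rw [Matrix.det_fin_three, h10, h20, h01, h21, h02, h12, e12, e01] at hdet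
  refine ⟨z.1.1 0 0, ?_, ?_⟩
  · linear_combination hdet
  · ext i j
    fin_cases i <;> fin_cases j <;> simp [h10, h20, h01, h21, h02, h12, e01, e12]

omit [Fintype K] in
theorem tor_center {e : Kˣ} (h : (e : K) * σ (e : K) = 1) (h3 : (e : K) ^ 3 = 1) : tor σ e ∈ Subgroup.center (SUG σ) := by
  have h1 : (e : K) ≠ 0 := e.ne_zero
  have h2 : σ (e : K) ≠ 0 := (map_ne_zero σ).2 h1
  have h4 : (σ (e : K))⁻¹ = e := (eq_inv_of_mul_eq_one_left h).symm
  have h5 : σ (e : K) * (e : K)⁻¹ = e := by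
    have h6 : σ (e : K) = (e : K)⁻¹ := eq_inv_of_mul_eq_one_right h
    rw [h6]
    field_simp
    exact h3.symm
  have hval : (tor σ e).1.1 = (e : K) • (1 : Matrix (Fin 3) (Fin 3) K) := by
    rw [tor_val, h4, h5]
    ext i j
    fin_cases i <;> fin_cases j <;> simp
  rw [Subgroup.mem_center_iff]
  intro g
  apply Subtype.ext
  apply Subtype.ext
  rw [coe_mul_SUG, coe_mul_SUG, hval, Matrix.mul_smul, Matrix.smul_mul, mul_one, one_mul]

/-- the centraliser of the image of a torus generator -/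
theorem cent (hs : ∀ x, σ x = x ^ q) (hF : Fintype.card K = q ^ 2) (hq : 5 ≤ q) {P : Type*} [Group P] {f : SUG σ →* P}
    (hf : Function.Surjective f) (hker : f.ker = Subgroup.center (SUG σ)) {e : Kˣ} (he : orderOf e = q ^ 2 - 1) {g : P}
    (hg : g * f (tor σ e) = f (tor σ e) * g) : ∃ a : Kˣ, g = f (tor σ a) := by
  have h1 : (e : K) ≠ 0 := e.ne_zero
  have h2 : σ (e : K) ≠ 0 := (map_ne_zero σ).2 h1
  have hq1 : 5 * q ≤ q ^ 2 := by rw [pow_two]; exact Nat.mul_le_mul_right q hq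
  have hpow : ∀ n : ℕ, (e : K) ^ n = 1 → n = 0 ∨ q ^ 2 - 1 ≤ n := by
    intro n hn
    rcases Nat.eq_zero_or_pos n with h | h
    · exact Or.inl h
    · right
      rw [← he]
      exact Nat.le_of_dvd h (orderOf_dvd_of_pow_eq_one (Units.ext (by simpa using hn)))
  obtain ⟨c, rfl⟩ := hf g
  rw [← map_mul, ← map_mul] at hg
  have hz : (c * tor σ e) * (tor σ e * c)⁻¹ ∈ Subgroup.center (SUG σ) := by
    rw [← hker, MonoidHom.mem_ker, map_mul, map_inv, hg, mul_inv_cancel]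
  obtain ⟨ζ, hζ3, hζ⟩ := center_scalar hs hF hz
  have hc : c.1.1 * (tor σ e).1.1 = ζ • ((tor σ e).1.1 * c.1.1) := by
    have h3 : c * tor σ e = ((c * tor σ e) * (tor σ e * c)⁻¹) * (tor σ e * c) := by group
    have h4 := congrArg (fun g : SUG σ => g.1.1) h3
    simp only [coe_mul_SUG] at h4 hζ
    rw [← coe_mul_SUG, h3, coe_mul_SUG ((c * tor σ e) * (tor σ e * c)⁻¹)]
    have h5 : ((c * tor σ e) * (tor σ e * c)⁻¹).1.1 = ζ • (1 : Matrix (Fin 3) (Fin 3) K) := by
      rw [← hζ]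
      rfl
    rw [h5, Matrix.smul_mul, one_mul, coe_mul_SUG]
  have hω : ∀ ω : K, ω = 1 ∨ ω = ζ → ω ^ 3 = 1 := by
    rintro ω (rfl | rfl)
    · exact one_pow _
    · exact hζ3
  obtain ⟨a, ha⟩ := diag_of_comm (σ := σ) (g := c) (e := e) (ζ := ζ) (by
    intro ω hω' h
    have h3 := hω ω hω'
    have h4 : (e : K) ^ (3 * (q - 2)) = 1 := by
      rw [hs] at h
      have h5 : (ω * (e : K)) ^ 3 * (e : K) ^ 3 = ((e : K) ^ q) ^ 3 := by
        rw [h]; field_simp
      rw [mul_pow, h3, one_mul, ← pow_add] at h5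
      have h6 : (e : K) ^ (3 * (q - 2)) * (e : K) ^ 6 = 1 * (e : K) ^ 6 := by
        rw [one_mul, ← pow_add, show 3 * (q - 2) + 6 = q * 3 by omega, pow_mul]
        exact h5.symm
      exact mul_right_cancel₀ (pow_ne_zero _ h1) h6
    rcases hpow _ h4 with h5 | h5 <;> omega) (by
    intro ω hω' h
    have h3 := hω ω hω'
    have h4 : (e : K) ^ (3 * (q + 1)) = 1 := by
      rw [hs] at h h2
      have h5 : (ω * (e : K)) ^ 3 * ((e : K) ^ q) ^ 3 = 1 := by
        rw [h, ← mul_pow, inv_mul_cancel₀ h2, one_pow]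
      rw [mul_pow, h3, one_mul, ← pow_mul, ← pow_add] at h5
      rw [show 3 * (q + 1) = 3 + q * 3 by ring]
      exact h5
    rcases hpow _ h4 with h5 | h5 <;> omega) (by
    intro h
    have h4 : (e : K) ^ (2 * q - 1) = 1 := by
      rw [hs] at h h2
      have h5 : (e : K) ^ q * (e : K) ^ q = e := by
        field_simp at h
        rw [← pow_two]
        exact h
      have h6 : (e : K) ^ (2 * q - 1) * (e : K) ^ 1 = 1 * (e : K) ^ 1 := by
        rw [← pow_add, one_mul, show 2 * q - 1 + 1 = q + q by omega, pow_add, pow_one]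
        exact h5
      exact mul_right_cancel₀ (pow_ne_zero _ h1) h6
    rcases hpow _ h4 with h5 | h5 <;> omega) hc
  exact ⟨a, by rw [ha]⟩

/-- the centre of the unitriangular group -/
def Zs (σ : K →+* K) [hσ : Fact (∀ x, σ (σ x) = x)] : Subgroup (HG σ) where
  carrier := {x | x.a = 0}
  mul_mem' {x y} hx hy := by
    change (x * y).a = 0
    rw [mul_a, show x.a = 0 from hx, show y.a = 0 from hy, add_zero]
  one_mem' := one_a
  inv_mem' {x} hx := by
    change (x⁻¹).a = 0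
    rw [inv_a, show x.a = 0 from hx, neg_zero]

omit [Fintype K] in
theorem mem_Zs {x : HG σ} : x ∈ Zs σ ↔ x.a = 0 := Iff.rfl

omit [Fintype K] in
theorem Zs_comm {z x : HG σ} (hz : z ∈ Zs σ) : z * x = x * z := by
  have hz' : z.a = 0 := hz
  ext
  · rw [mul_a, mul_a, add_comm]
  · rw [mul_b, mul_b, hz', map_zero]; ring

omit [Fintype K] in
theorem act_mem_Zs {e : Kˣ} {x : HG σ} (hx : x ∈ Zs σ) : act e x ∈ Zs σ := by
  have hx' : x.a = 0 := hx
  change (e : K) ^ 2 * (σ (e : K))⁻¹ * x.a = 0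
  rw [hx', mul_zero]

theorem card_HG (hs : ∀ x, σ x = x ^ q) (hF : Fintype.card K = q ^ 2) : Nat.card (HG σ) = q ^ 2 * Nat.card (Zs σ) := by
  let φ : HG σ →* Multiplicative K :=
    { toFun := fun x => Multiplicative.ofAdd x.a
      map_one' := by rw [one_a]; rfl
      map_mul' := fun x y => by rw [mul_a]; rfl }
  have hφ : Function.Surjective φ := by
    intro a
    obtain ⟨x, hx⟩ := exists_HG (σ := σ) hs hF (Multiplicative.toAdd a)
    exact ⟨x, by change Multiplicative.ofAdd x.a = a; rw [hx]; rfl⟩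
  have hk : φ.ker = Zs σ := by
    ext x
    rw [MonoidHom.mem_ker, mem_Zs]
    exact Iff.rfl
  rw [Subgroup.card_eq_card_quotient_mul_card_subgroup φ.ker,
    Nat.card_congr (QuotientGroup.quotientKerEquivOfSurjective φ hφ).toEquiv, hk]
  congr 1
  rw [← hF, ← Nat.card_eq_fintype_card]
  exact Nat.card_congr Multiplicative.toAdd

end Field

section Main

variable {K : Type*} [Field K] [Fintype K] {σ : K →+* K} [hσ : Fact (∀ x, σ (σ x) = x)] {q : ℕ}

/-- elements of norm one -/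
def U1 (K : Type*) [Field K] (q : ℕ) : Subgroup Kˣ := (powMonoidHom (q + 1) : Kˣ →* Kˣ).ker

omit [Fintype K] hσ in
theorem mem_U1 (hs : ∀ x, σ x = x ^ q) {e : Kˣ} : e ∈ U1 K q ↔ (e : K) * σ (e : K) = 1 := by
  rw [U1, MonoidHom.mem_ker, powMonoidHom_apply, hs, ← pow_succ', ← Units.val_pow_eq_pow_val]
  exact ⟨fun h => by rw [h, Units.val_one], fun h => Units.ext h⟩

theorem card_D (hs : ∀ x, σ x = x ^ q) (hF : Fintype.card K = q ^ 2) (h3 : 3 ∣ q + 1) {P : Type*} [Group P] {f : SUG σ →* P}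
    (hker : f.ker = Subgroup.center (SUG σ)) : Nat.card ((U1 K q).map (f.comp (tor σ))) ≤ q := by
  have hq := two_le hF
  have hc : Nat.card (U1 K q) = q + 1 := by
    rw [U1, IsCyclic.card_powMonoidHom_ker, card_units_eq hF]
    exact Nat.gcd_eq_right (Dvd.intro _ rfl)
  let g : U1 K q →* P := (f.comp (tor σ)).comp (U1 K q).subtype
  have hr : (U1 K q).map (f.comp (tor σ)) = g.range := by
    rw [MonoidHom.range_comp, Subgroup.range_subtype]
  have hfin : Finite (U1 K q) := inferInstance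
  -- a cube root of unity
  have : Fact (Nat.Prime 3) := ⟨Nat.prime_three⟩
  obtain ⟨e, he⟩ := exists_prime_orderOf_dvd_card' (G := U1 K q) 3 (by rw [hc]; exact h3)
  have he3 : e ^ 3 = 1 := by rw [← he]; exact pow_orderOf_eq_one e
  have hek : e ∈ g.ker := by
    rw [MonoidHom.mem_ker]
    change f (tor σ (e : Kˣ)) = 1
    rw [← MonoidHom.mem_ker, hker]
    refine tor_center ((mem_U1 hs).1 e.2) ?_
    have h4 := congrArg (fun x : U1 K q => ((x : Kˣ) : K)) he3
    simpa using h4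
  have hke : 2 ≤ Nat.card g.ker := by
    have h4 : Nontrivial g.ker := by
      refine ⟨⟨⟨e, hek⟩, 1, fun h => ?_⟩⟩
      have h5 : e = 1 := congrArg Subtype.val h
      rw [h5, orderOf_one] at he
      norm_num at he
    exact Finite.one_lt_card
  have h5 := Subgroup.card_eq_card_quotient_mul_card_subgroup g.ker
  rw [hc, Nat.card_congr (QuotientGroup.quotientKerEquivRange g).toEquiv] at h5
  rw [hr]
  nlinarith

theorem row_aux (hs : ∀ x, σ x = x ^ q) (hF : Fintype.card K = q ^ 2) (hq : 5 ≤ q) (h3 : 3 ∣ q + 1) {P : Type*} [Group P] [Finite P]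
    [IsSimpleGroup P] {f : SUG σ →* P} (hf : Function.Surjective f) (hker : f.ker = Subgroup.center (SUG σ)) : Row P := by
  have hq2 : 1 < q ^ 2 := Nat.one_lt_pow (by norm_num) (by omega)
  -- a generator
  obtain ⟨e, he⟩ : ∃ e : Kˣ, orderOf e = q ^ 2 - 1 := by
    obtain ⟨e, he⟩ := IsCyclic.exists_ofOrder_eq_natCard (α := Kˣ)
    exact ⟨e, by rw [he, Nat.card_units, Nat.card_eq_fintype_card, hF]⟩
  let j : HG σ →* P := f.comp (emb σ)
  let τ : Kˣ →* P := f.comp (tor σ)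
  have hj : Function.Injective j := by
    rw [injective_iff_map_eq_one]
    intro x hx
    have h1 : emb σ x ∈ f.ker := hx
    rw [hker] at h1
    exact eq_one_of_mem_center h1
  have hτj : ∀ (a : Kˣ) (x : HG σ), τ a * j x * (τ a)⁻¹ = j (act a x) := by
    intro a x
    change f (tor σ a) * f (emb σ x) * (f (tor σ a))⁻¹ = f (emb σ (act a x))
    rw [← map_mul, ← map_inv, ← map_mul, tor_conj]
  have hcent : ∀ c ∈ Subgroup.centralizer {τ e}, ∃ a : Kˣ, c = τ a := by
    intro c hc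
    rw [Subgroup.mem_centralizer_singleton_iff] at hc
    exact cent hs hF hq hf hker he hc
  let Z : Subgroup P := (Zs σ).map j
  let Q : Subgroup P := j.range
  let D : Subgroup P := (U1 K q).map τ
  have hZQ : Z ≤ Q := by
    rintro _ ⟨x, -, rfl⟩
    exact ⟨x, rfl⟩
  have hZc : ∀ z ∈ Z, ∀ y ∈ Q, z * y = y * z := by
    rintro _ ⟨z, hz, rfl⟩ _ ⟨y, rfl⟩
    rw [← map_mul, ← map_mul, Zs_comm hz]
  have hZab : IsMulCommutative Z := ⟨⟨fun a b => Subtype.ext (hZc a a.2 b (hZQ b.2))⟩⟩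
  -- `Z ≠ 1`
  have hZ1 : Z ≠ ⊥ := by
    intro h0
    obtain ⟨y, hy, hy0⟩ := LieClassical.HermBasic.exists_trace_zero_ne hF
    let z : HG σ := ⟨0, y, by rw [hs y, map_zero, mul_zero]; exact hy0⟩
    have hz : j z ∈ Z := ⟨z, rfl, rfl⟩
    rw [h0, Subgroup.mem_bot, ← map_one j] at hz
    have h1 := congrArg HG.b (hj hz)
    rw [one_b] at h1
    exact hy h1
  have hDZ' : ∀ a : Kˣ, ∀ z ∈ Z, τ a * z * (τ a)⁻¹ ∈ Z := by
    rintro a _ ⟨z, hz, rfl⟩
    rw [hτj]
    exact ⟨_, act_mem_Zs hz, rfl⟩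
  intro χ hχ
  by_cases h1 : χ = 1
  · exact ⟨1, h1 ▸ hasFix_one _⟩
  obtain ⟨l, hl1, hl⟩ := exists_occ_of_simple hχ h1 hZab hZ1
  obtain ⟨n, ρ, hρ, rfl⟩ := hχ
  refine ⟨τ e, ?_⟩
  have hl1' : ∃ w : HG σ, ∃ hw : j w ∈ Z, w.a = 0 ∧ l ⟨j w, hw⟩ ≠ 1 := by
    by_contra hcon
    push Not at hcon
    apply hl1
    ext ⟨_, w, hw, rfl⟩
    exact congrArg Units.val (hcon w ⟨w, hw, rfl⟩ hw)
  obtain ⟨v, hv, hvl, hvD⟩ := exists_fixed_heis ρ (Q := Q) (Z := Z) (D := D) hZQ hZc
    (by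
      rintro _ ⟨a, -, rfl⟩ _ ⟨y, rfl⟩
      rw [hτj]
      exact ⟨_, rfl⟩)
    (by
      rintro _ ⟨a, -, rfl⟩ z hz
      exact hDZ' a z hz)
    (by
      rintro _ ⟨a, ha, rfl⟩ ha1 _ ⟨y, rfl⟩ hy
      rw [hτj, ← map_inv, ← map_mul] at hy
      obtain ⟨z, hz, hzy⟩ := hy
      have h4 : z = act a y * y⁻¹ := hj hzy
      have h5 : (act a y * y⁻¹).a = 0 := by rw [← h4]; exact hz
      rw [mul_a, inv_a] at h5
      have h6 : (a : K) ^ 2 * (σ (a : K))⁻¹ * y.a - y.a = 0 := by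
        rw [sub_eq_add_neg]; exact h5
      have hN := (mem_U1 (σ := σ) hs).1 ha
      have h7 : (σ (a : K))⁻¹ = a := (eq_inv_of_mul_eq_one_left hN).symm
      rw [h7] at h6
      refine ⟨y, ?_, rfl⟩
      change y.a = 0
      by_contra hne
      apply ha1
      have h8 : (a : K) ^ 3 = 1 := by
        have h9 : ((a : K) ^ 3 - 1) * y.a = 0 := by linear_combination h6
        exact sub_eq_zero.1 ((mul_eq_zero.1 h9).resolve_right hne)
      have h9 := tor_center hN h8
      rw [← hker] at h9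
      exact h9)
    (by
      rintro _ ⟨a, ha, rfl⟩ ⟨_, z, hz, rfl⟩ ⟨b, hb⟩ hba
      have hN := (mem_U1 (σ := σ) hs).1 ha
      have h4 : b = j z := by
        have h5 : b = τ a * j z * (τ a)⁻¹ := hba
        rw [h5, hτj]
        congr 1
        have hz' : z.a = 0 := hz
        ext
        · change (a : K) ^ 2 * (σ (a : K))⁻¹ * z.a = z.a
          rw [hz', mul_zero]
        · change (a : K) * σ (a : K) * z.b = z.b
          rw [hN, one_mul]
      subst h4
      rfl)
    hl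
    (by
      rintro _ ⟨y, rfl⟩ hyZ
      have hya : y.a ≠ 0 := fun h => hyZ ⟨y, h, rfl⟩
      obtain ⟨w, hw, hwa, hlw⟩ := hl1'
      have hwb : σ w.b = -w.b := by
        have h4 := w.h
        rw [hwa, zero_mul] at h4
        exact eq_neg_of_add_eq_zero_right h4
      obtain ⟨t, ht⟩ := exists_t hs hF hwb
      obtain ⟨x', hx'⟩ := exists_HG hs hF (σ (t / y.a))
      refine ⟨j x', ⟨x', rfl⟩, ⟨j w, hw⟩, ?_, hlw⟩
      change j w = _
      rw [← map_mul, ← map_inv, ← map_mul, ← map_inv, ← map_mul]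
      congr 1
      rw [comm_HG y x' w hwa (by
        rw [hx', hσ.out, ← ht, map_div₀]
        have hsy : σ y.a ≠ 0 := (map_ne_zero σ).2 hya
        field_simp)]
      group)
    (by
      have hD : Nat.card D ≤ q := card_D hs hF h3 hker
      have hQ : Nat.card Q = q ^ 2 * Nat.card (Zs σ) := by
        rw [← card_HG hs hF]
        exact (Nat.card_congr (MonoidHom.ofInjective hj).toEquiv).symm
      have hZc : Nat.card Z = Nat.card (Zs σ) :=
        (Nat.card_congr ((Zs σ).equivMapOfInjective j hj).toEquiv).symm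
      rw [hQ, hZc]
      exact Nat.mul_le_mul_right _ (Nat.pow_le_pow_left hD 2))
  refine hasFix_of_stab ρ (A := Z) (C := Subgroup.centralizer {τ e}) ?_ hv hvl ?_
  · intro c hc a ha
    obtain ⟨b, rfl⟩ := hcent c hc
    exact hDZ' b a ha
  · intro c hc hst
    obtain ⟨a, rfl⟩ := hcent c hc
    refine hvD _ ⟨a, ?_, rfl⟩
    change a ∈ U1 K q
    rw [mem_U1 (σ := σ) hs]
    by_contra hN
    obtain ⟨w, hw, hwa, hlw⟩ := hl1'
    apply hlw
    have hwb : σ w.b = -w.b := by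
      have h4 := w.h
      rw [hwa, zero_mul] at h4
      exact eq_neg_of_add_eq_zero_right h4
    have hN1 : (a : K) * σ (a : K) - 1 ≠ 0 := sub_ne_zero.2 hN
    have hNs : σ ((a : K) * σ (a : K) - 1) = (a : K) * σ (a : K) - 1 := by
      rw [map_sub, map_mul, hσ.out, map_one, mul_comm]
    let w' : HG σ := ⟨0, w.b / ((a : K) * σ (a : K) - 1), by
      rw [map_div₀, hNs, hwb, map_zero, mul_zero]; ring⟩
    have hw' : w' ∈ Zs σ := rfl
    have h4 := hst ⟨j w', ⟨w', hw', rfl⟩⟩ ⟨j (act a w'), ⟨_, act_mem_Zs hw', rfl⟩⟩ (hτj a w').symm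
    have h5 : act a w' = w * w' := by
      ext
      · rw [mul_a, hwa]
        change (a : K) ^ 2 * (σ (a : K))⁻¹ * (0 : K) = 0 + (0 : K)
        ring
      · rw [mul_b, hwa, zero_mul, add_zero]
        change (a : K) * σ (a : K) * (w.b / ((a : K) * σ (a : K) - 1)) = w.b + w.b / ((a : K) * σ (a : K) - 1)
        field_simp
        ring
    have h6 : (⟨j (act a w'), ⟨_, act_mem_Zs hw', rfl⟩⟩ : Z) = ⟨j w, hw⟩ * ⟨j w', ⟨w', hw', rfl⟩⟩ := by
      apply Subtype.ext
      change j (act a w') = j w * j w'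
      rw [h5, map_mul]
    rw [h6, map_mul] at h4
    exact mul_eq_right.1 h4

end Main

/-- The row `PSU₃(q)`, `3 ∣ q + 1`, of S4792. -/
theorem row_psu3 {S : Type*} [Group S] [Finite S] (hs : IsSimpleGroup S) {F : Type*} [Field F] [Fintype F] {q : ℕ}
    (hF : Fintype.card F = q ^ 2) (h3 : 3 ∣ q + 1) (e : Nonempty (S ≃* PSU 3 F q)) : Row S := by
  obtain ⟨e⟩ := e
  have hsP : IsSimpleGroup (PSU 3 F q) := by
    have : Nontrivial (PSU 3 F q) := e.symm.toEquiv.nontrivial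
    exact IsSimpleGroup.isSimpleGroup_of_surjective e.toMonoidHom e.surjective
  have hfin : Finite (PSU 3 F q) := Finite.of_equiv _ e.toEquiv
  have hq2 := two_le hF
  have hq : 5 ≤ q := by
    by_contra hcon
    have hq : q = 2 := by omega
    subst hq
    obtain ⟨hc, hsol⟩ := Cfsg.Agent.S0282.result (F := F) (by rw [hF]; norm_num)
    have hcomm := IsSimpleGroup.comm_iff_isSolvable.2 hsol
    let _ : CommGroup (PSU 3 F 2) := { (inferInstance : Group (PSU 3 F 2)) with mul_comm := hcomm }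
    have hp : (Nat.card (PSU 3 F 2)).Prime := IsSimpleGroup.prime_card
    rw [hc] at hp
    revert hp
    decide
  let σ : F →+* F := (LieClassical.HermBasic.conj hF : F ≃+* F)
  have hσ : Fact (∀ x, σ (σ x) = x) := ⟨fun x => pow_q_pow_q hF x⟩
  have hsx : ∀ x, σ x = x ^ q := fun x => rfl
  obtain ⟨f, hf, hker⟩ := exists_psu_hom (σ := σ) hsx hF
  exact Row.of_equiv e.symm (row_aux hsx hF hq h3 hf hker)

end Cfsg.Agent.H783.Psu3
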