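import Cfsg.Agent.H91.SympStd
import Cfsg.Agent.H396.CommTab1
import Cfsg.Agent.H396.HasCG

/-!
# Maximal subgroups of `PSp` of index prime to `p` (helper783, for helper91, S2195)
-/

set_option autoImplicit false

namespace Cfsg.Agent.H783.SympStab

open Module Cfsg.Agent.H91 Cfsg.Agent.TitsThree Subgroup

section lift

variable {S Q : Type*} [Group S] [Group Q]

/-- lifting a `p`-subgroup through a central extension, with its normalizer -/
theorem exists_lift [Finite S] {p : ℕ} [Fact p.Prime] (f : S →* Q) (hf : Function.Surjective f)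
    (hk : ∀ z : S, f z = 1 → ∀ x, x * z = z * x) {V : Subgroup Q} (hV : IsPGroup p V) :
    ∃ P : Subgroup S, IsPGroup p P ∧ P.map f = V ∧
      ∀ k : S, (∀ y ∈ V, f k * y * (f k)⁻¹ ∈ V) → ∀ x ∈ P, k * x * k⁻¹ ∈ P := by
  have hfQ : Finite Q := Finite.of_surjective f hf
  obtain ⟨N, hN⟩ : ∃ N : Subgroup S, N = V.comap f := ⟨_, rfl⟩
  have hmem : ∀ x, x ∈ N ↔ f x ∈ V := fun x => by rw [hN]; rfl
  obtain ⟨P0⟩ : Nonempty (Sylow p N) := inferInstance
  let φ : N →* V := (f.comp N.subtype).codRestrict V (fun x => (hmem x).1 x.2)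
  have hφ : ∀ x : N, (φ x : Q) = f x := fun _ => rfl
  have hφs : Function.Surjective φ := by
    rintro ⟨y, hy⟩
    obtain ⟨x, rfl⟩ := hf y
    exact ⟨⟨x, (hmem x).2 hy⟩, rfl⟩
  have htop : (P0 : Subgroup N).map φ = ⊤ := by
    rw [← Subgroup.index_eq_one]
    obtain ⟨j, hj⟩ := hV.index ((P0 : Subgroup N).map φ)
    have h1 : ((P0 : Subgroup N).map φ).index ∣ (P0 : Subgroup N).index := Subgroup.index_map_dvd _ hφs
    rcases Nat.eq_zero_or_pos j with h | h
    · rw [hj, h, pow_zero]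
    · exfalso
      apply P0.not_dvd_index
      refine dvd_trans ?_ h1
      rw [hj]
      exact dvd_pow_self p h.ne'
  have hnorm : (P0 : Subgroup N).Normal := by
    constructor
    intro x hx g
    obtain ⟨x1, hx1, hx1g⟩ : ∃ x1 ∈ (P0 : Subgroup N), φ x1 = φ g := by
      have : φ g ∈ (P0 : Subgroup N).map φ := by rw [htop]; exact mem_top _
      exact this
    have h1 : f ((x1 : S)⁻¹ * g) = 1 := by
      have h2 := congrArg Subtype.val hx1g
      rw [hφ, hφ] at h2
      rw [map_mul, map_inv, h2, inv_mul_cancel]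
    have h2 : g * x * g⁻¹ = x1 * x * x1⁻¹ := by
      apply Subtype.ext
      push_cast
      have h3 := hk _ h1 x
      have h4 : (g : S) = x1 * ((x1 : S)⁻¹ * g) := by group
      have h5 : (g : S) * x = x1 * x * ((x1 : S)⁻¹ * g) := by
        rw [mul_assoc, h3, ← mul_assoc, ← h4]
      rw [h5]
      group
    rw [h2]
    exact mul_mem (mul_mem hx1 hx) (inv_mem hx1)
  refine ⟨(P0 : Subgroup N).map N.subtype, P0.isPGroup'.map _, ?_, ?_⟩
  · ext y
    constructor
    · rintro ⟨_, ⟨x, hx, rfl⟩, rfl⟩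
      exact (hmem _).1 x.2
    · intro hy
      have : (⟨y, hy⟩ : V) ∈ (P0 : Subgroup N).map φ := by rw [htop]; exact mem_top _
      obtain ⟨x, hx, hxy⟩ := this
      exact ⟨x, ⟨x, hx, rfl⟩, congrArg Subtype.val hxy⟩
  · intro k hkV x hx
    obtain ⟨x0, hx0, rfl⟩ := hx
    have h1 : k * (x0 : S) * k⁻¹ ∈ N := by
      rw [hmem, map_mul, map_mul, map_inv]
      exact hkV _ ((hmem _).1 x0.2)
    obtain ⟨j, hj⟩ := P0.isPGroup' ⟨x0, hx0⟩
    have hj' : (x0 : S) ^ p ^ j = 1 := by
      have h2 := congrArg (fun y : (P0 : Subgroup N) => ((y : N) : S)) hj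
      simpa using h2
    have h2 : (⟨k * (x0 : S) * k⁻¹, h1⟩ : N) ^ p ^ j = 1 := by
      apply Subtype.ext
      push_cast
      rw [conj_pow, hj', mul_one, mul_inv_cancel]
    have h3 : IsPGroup p (zpowers (⟨k * (x0 : S) * k⁻¹, h1⟩ : N)) := by
      obtain ⟨i, -, hi⟩ := (Nat.dvd_prime_pow Fact.out).1 (orderOf_dvd_of_pow_eq_one h2)
      exact IsPGroup.of_card (n := i) (by rw [Nat.card_zpowers, hi])
    obtain ⟨R, hR⟩ := h3.exists_le_sylow
    have hu := Sylow.unique_of_normal P0 hnorm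
    have h4 : R = P0 := Subsingleton.elim _ _
    refine ⟨⟨k * (x0 : S) * k⁻¹, h1⟩, ?_, rfl⟩
    rw [← h4]
    exact hR (mem_zpowers _)

end lift

section fixed

variable {F W : Type*} [Field F] [AddCommGroup W] [Module F W] [Finite W]

theorem exists_fixed {p : ℕ} [Fact p.Prime] [CharP F p] {P : Subgroup (W ≃ₗ[F] W)} (hP : IsPGroup p P)
    {D : Submodule F W} (hD0 : D ≠ ⊥) (hD : ∀ g ∈ P, ∀ d ∈ D, g d ∈ D) : ∃ d ∈ D, d ≠ 0 ∧ ∀ g ∈ P, g d = d := by
  let act : MulAction P D :=
    { smul := fun g d => ⟨(g : W ≃ₗ[F] W) d, hD g g.2 d d.2⟩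
      one_smul := fun d => rfl
      mul_smul := fun g h d => rfl }
  have hsm : ∀ (g : P) (d : D), ((g • d : D) : W) = (g : W ≃ₗ[F] W) d := fun _ _ => rfl
  obtain ⟨d0, hd0, hd00⟩ := (Submodule.ne_bot_iff _).1 hD0
  have hcard : p ∣ Nat.card D := by
    have h1 : addOrderOf (⟨d0, hd0⟩ : D) = p := by
      apply addOrderOf_eq_prime
      · rw [← Nat.cast_smul_eq_nsmul F, CharP.cast_eq_zero, zero_smul]
      · intro h
        exact hd00 (congrArg Subtype.val h)
    rw [← h1]
    exact addOrderOf_dvd_natCard _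
  have h0 : (0 : D) ∈ MulAction.fixedPoints P D := by
    intro g
    apply Subtype.ext
    rw [hsm]
    exact map_zero _
  obtain ⟨b, hb, hb0⟩ := hP.exists_fixed_point_of_prime_dvd_card_of_fixed_point D hcard h0
  refine ⟨b, b.2, fun h => hb0 (Subtype.ext h).symm, fun g hg => ?_⟩
  have h1 := hb ⟨g, hg⟩
  exact congrArg Subtype.val h1

end fixed

/-- **Maximal subgroups of `PSp` of index prime to `p`** are stabilizers of totally isotropic subspaces. -/
theorem exists_stab {m : ℕ} (hm : 2 ≤ m) {F : Type*} [Field F] [Fintype F] (hq : Odd (Fintype.card F)) {p : ℕ}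
    [Fact p.Prime] [CharP F p] (K : Subgroup (Cfsg.PSp m F)) (hK : IsCoatom K) (hp : ¬ p ∣ K.index) :
    ∃ M : Submodule F (Fin m ⊕ Fin m → F), M ≠ ⊥ ∧ Symp.TI (Symp.sB m F) M ∧
      ∀ g : SpIdent.isos (SpIdent.form m F), SpIdent.toPSp g ∈ K ↔ M.map (g.1 : _ →ₗ[F] _) = M := by
  classical
  let W : Type _ := Fin m ⊕ Fin m → F
  have hF2 : 2 < Fintype.card F := by
    obtain ⟨c, hc⟩ := hq
    have := Fintype.one_lt_card (α := F)
    omega
  have hfinL : Finite (W ≃ₗ[F] W) := DFunLike.finite _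
  have hfinS : Finite (SpIdent.isos (SpIdent.form m F)) := inferInstance
  have hfinP : Finite (Cfsg.PSp m F) := Finite.of_surjective _ SpIdent.toPSp_surjective
  have hpar := (Cfsg.Agent.H396.CommTab.hasCG_PSp (F := F) (m := m) hm hF2 (p := p)).par
  obtain ⟨-, V, hV, hVp, hVK, hKV⟩ := hpar.of_isCoatom hK (fun h => hp ((dvd_pow_self p two_ne_zero).trans h))
  have hB := Symp.sform_sB m F
  have hnorm : ∀ k : SpIdent.isos (SpIdent.form m F), SpIdent.toPSp k ∈ K →
      ∀ y ∈ V, SpIdent.toPSp k * y * (SpIdent.toPSp k)⁻¹ ∈ V := by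
    intro k hk y hy
    exact (mem_normalizer_iff.1 (hKV hk) y).1 hy
  -- the kernel is central
  have hcen : ∀ z : SpIdent.isos (SpIdent.form m F), SpIdent.toPSp z = 1 → ∀ x, x * z = z * x := by
    intro z hz x
    obtain ⟨a, -, ha⟩ := SpIdent.exists_smul_of_toPSp_eq_one hz
    apply Subtype.ext
    apply LinearEquiv.ext
    intro v
    change x.1 (z.1 v) = z.1 (x.1 v)
    rw [ha, ha, map_smul]
  obtain ⟨P, hPp, hPV, hPn⟩ := exists_lift (p := p) SpIdent.toPSp SpIdent.toPSp_surjective hcen hVp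
  -- as a group of linear maps
  obtain ⟨P', hP'⟩ : ∃ P' : Subgroup (W ≃ₗ[F] W), P' = P.map (SpIdent.isos (SpIdent.form m F)).subtype := ⟨_, rfl⟩
  have hP'p : IsPGroup p P' := by rw [hP']; exact hPp.map _
  have hP'm : ∀ g : SpIdent.isos (SpIdent.form m F), g ∈ P → g.1 ∈ P' := by
    intro g hg
    rw [hP']
    exact ⟨g, hg, rfl⟩
  have hiso : ∀ (g : SpIdent.isos (SpIdent.form m F)) (x y : W),
      Symp.sB m F (g.1 x) (g.1 y) = Symp.sB m F x y := fun g x y => g.2 x y
  -- fixed space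
  let C : Submodule F W :=
    { carrier := {v | ∀ g ∈ P, g.1 v = v}
      add_mem' := fun {x y} hx hy g hg => by rw [map_add, hx g hg, hy g hg]
      zero_mem' := fun g _ => map_zero _
      smul_mem' := fun c x hx g hg => by rw [map_smul, hx g hg] }
  have hC : ∀ v, v ∈ C ↔ ∀ g ∈ P, g.1 v = v := fun v => Iff.rfl
  let D : Submodule F W :=
    { carrier := {v | ∀ c ∈ C, Symp.sB m F c v = 0}
      add_mem' := fun {x y} hx hy c hc => by rw [map_add, hx c hc, hy c hc, add_zero]
      zero_mem' := fun c _ => map_zero _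
      smul_mem' := fun a x hx c hc => by rw [map_smul, hx c hc, smul_zero] }
  have hD : ∀ v, v ∈ D ↔ ∀ c ∈ C, Symp.sB m F c v = 0 := fun v => Iff.rfl
  have hCtop : C ≠ ⊤ := by
    intro hC1
    apply hV
    rw [← hPV, eq_bot_iff]
    rintro _ ⟨g, hg, rfl⟩
    have h1 : g = 1 := by
      apply Subtype.ext
      apply LinearEquiv.ext
      intro v
      have : v ∈ C := by rw [hC1]; exact Submodule.mem_top
      exact this g hg
    rw [h1, map_one]
    exact one_mem _
  have hD0 : D ≠ ⊥ := by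
    obtain ⟨x, hx⟩ : ∃ x : W, x ∉ C := by
      by_contra hcon
      push Not at hcon
      exact hCtop (eq_top_iff.2 fun x _ => hcon x)
    obtain ⟨f, hfx, hf⟩ := Submodule.exists_le_ker_of_notMem hx
    -- `f = B _ w`
    have hinj : Function.Injective (Symp.sB m F).flip := by
      rw [injective_iff_map_eq_zero]
      intro w hw
      by_contra hw0
      obtain ⟨y, hy⟩ := hB.exists_ne hw0
      apply hy
      rw [hB.swap]
      have : Symp.sB m F y w = 0 := LinearMap.congr_fun hw y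
      rw [this, neg_zero]
    have hsurj : Function.Surjective (Symp.sB m F).flip := by
      rw [← LinearMap.injective_iff_surjective_of_finrank_eq_finrank]
      · exact hinj
      · rw [← Subspace.dual_finrank_eq]
    obtain ⟨w, hw⟩ := hsurj f
    have hw' : ∀ y, Symp.sB m F y w = f y := fun y => LinearMap.congr_fun hw y
    intro hbot
    have h1 : w ∈ D := by
      intro c hc
      rw [hw']
      exact hf hc
    rw [hbot, Submodule.mem_bot] at h1
    apply hfx
    rw [← hw', h1, map_zero]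
  obtain ⟨d, hdD, hd0, hdP⟩ := exists_fixed (p := p) (P := P') hP'p hD0 (by
    rw [hP']
    rintro _ ⟨g, hg, rfl⟩ d hd c hc
    have h1 : g.1 c = c := hc g hg
    have h2 := hiso g c d
    rw [h1] at h2
    exact h2.trans (hd c hc))
  have hdC : d ∈ C := fun g hg => hdP _ (hP'm g hg)
  -- invariance
  have hinv : ∀ k : SpIdent.isos (SpIdent.form m F), SpIdent.toPSp k ∈ K → ∀ v ∈ C ⊓ D, k.1 v ∈ C ⊓ D := by
    have hinvC : ∀ k : SpIdent.isos (SpIdent.form m F), SpIdent.toPSp k ∈ K → ∀ v ∈ C, k.1 v ∈ C := by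
      intro k hk v hv g hg
      have h1 := hPn k⁻¹ (hnorm k⁻¹ (by rw [map_inv]; exact inv_mem hk)) g hg
      have h2 : (k⁻¹ * g * k⁻¹⁻¹).1 v = v := hv _ h1
      have h3 : g * k = k * (k⁻¹ * g * k⁻¹⁻¹) := by group
      have h4 : (g * k).1 v = (k * (k⁻¹ * g * k⁻¹⁻¹)).1 v := by rw [← h3]
      change g.1 (k.1 v) = k.1 ((k⁻¹ * g * k⁻¹⁻¹).1 v) at h4
      rw [h4, h2]
    intro k hk v hv
    refine ⟨hinvC k hk v hv.1, fun c hc => ?_⟩
    have h1 : k⁻¹.1 c ∈ C := hinvC k⁻¹ (by rw [map_inv]; exact inv_mem hk) c hc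
    have h2 := hiso k (k⁻¹.1 c) v
    have h3 : k.1 (k⁻¹.1 c) = c := by
      change (k * k⁻¹).1 c = c
      rw [mul_inv_cancel]
      rfl
    rw [h3] at h2
    rw [h2]
    exact hv.2 _ h1
  refine ⟨C ⊓ D, ?_, fun x hx y hy => hy.2 x hx.1, ?_⟩
  · intro hbot
    have h1 : d ∈ C ⊓ D := ⟨hdC, hdD⟩
    rw [hbot, Submodule.mem_bot] at h1
    exact hd0 h1
  -- the stabilizer
  let St : Subgroup (SpIdent.isos (SpIdent.form m F)) :=
    { carrier := {g | (C ⊓ D).map (g.1 : W →ₗ[F] W) = C ⊓ D}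
      mul_mem' := fun {g h} hg hh => by
        change (C ⊓ D).map ((g.1 : W →ₗ[F] W).comp (h.1 : W →ₗ[F] W)) = C ⊓ D
        rw [Submodule.map_comp, hh, hg]
      one_mem' := Submodule.map_id _
      inv_mem' := fun {g} hg => by
        have h1 : (C ⊓ D).map ((g⁻¹.1 : W →ₗ[F] W).comp (g.1 : W →ₗ[F] W)) = C ⊓ D := by
          have h2 : (g⁻¹.1 : W →ₗ[F] W).comp (g.1 : W →ₗ[F] W) = LinearMap.id := by
            refine LinearMap.ext fun v => ?_
            change (g⁻¹ * g).1 v = v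
            rw [inv_mul_cancel]
            rfl
          rw [h2, Submodule.map_id]
        rw [Submodule.map_comp, hg] at h1
        exact h1 }
  have hSt : ∀ g, g ∈ St ↔ (C ⊓ D).map (g.1 : W →ₗ[F] W) = C ⊓ D := fun g => Iff.rfl
  have hle : K.comap SpIdent.toPSp ≤ St := by
    intro k hk
    rw [hSt]
    apply Submodule.eq_of_le_of_finrank_eq
    · rintro _ ⟨v, hv, rfl⟩
      exact hinv k hk v hv
    · exact LinearEquiv.finrank_map_eq k.1 _
  have hne : St ≠ ⊤ := by
    obtain ⟨y, hy⟩ := hB.exists_ne hd0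
    have hyM : y ∉ C ⊓ D := by
      intro h
      exact hy (h.2 d hdC)
    have hy0 : y ≠ 0 := by
      rintro rfl
      exact hyM (Submodule.zero_mem _)
    obtain ⟨g, hg, hgd⟩ := Symp.witt_family (w := fun _ : Unit => d) (w' := fun _ : Unit => y) hB
      (linearIndependent_unique_iff.2 hd0) (linearIndependent_unique_iff.2 hy0) (by
        intro i j
        rw [hB.self, hB.self])
    intro htop
    have h1 : (⟨g, hg⟩ : SpIdent.isos (SpIdent.form m F)) ∈ St := by rw [htop]; exact mem_top _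
    rw [hSt] at h1
    apply hyM
    rw [← h1]
    exact ⟨d, ⟨hdC, hdD⟩, hgd ()⟩
  have heq : K.comap SpIdent.toPSp = St := by
    have h1 : K ≤ St.map SpIdent.toPSp := by
      intro x hx
      obtain ⟨g, rfl⟩ := SpIdent.toPSp_surjective x
      exact ⟨g, hle hx, rfl⟩
    have h2 : (St.map SpIdent.toPSp).comap SpIdent.toPSp = St := by
      apply Subgroup.comap_map_eq_self
      intro z hz
      apply hle
      rw [mem_comap, (MonoidHom.mem_ker).1 hz]
      exact one_mem _
    rcases hK.le_iff.1 h1 with h3 | h3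
    · exfalso
      apply hne
      rw [← h2, h3, Subgroup.comap_top]
    · rw [← h2, h3]
  intro g
  rw [← hSt, ← heq]
  rfl

end Cfsg.Agent.H783.SympStab
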