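import Cfsg.Agent.H783.U34B
import Cfsg.Agent.H484.Pos

/-!
# `U₃(4)` is not in `E₇(2)` (task 2447, for S5770)
-/

set_option autoImplicit false

namespace Cfsg.Agent.H783.U34

theorem pos.{u} : U34A.Pos.{u} := by
  intro p M V hM hV G _ _ n σ χ hχ h0
  exact Cfsg.Agent.H484.Pos.pos hM hV σ hχ h0

/-- **`U₃(4)` is not admissible.** -/
theorem not_psu34 {K : Type*} [Field K] [Fintype K] (hK : Fintype.card K = 16) :
    ¬ Cfsg.Agent.H943.E7V.Adm (Cfsg.PSU 3 K 4) :=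
  U34B.not_psu34 pos hK

end Cfsg.Agent.H783.U34
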